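import Cfsg.Agent.Gross.Reflection
import Mathlib.RingTheory.RootsOfUnity.PrimitiveRoots
import Mathlib.Algebra.Field.ZMod

/-!
# The symplectic space attached to a central character of a class two group
-/

set_option autoImplicit false
set_option linter.unusedSectionVars false
set_option linter.style.haveILetI false

namespace Cfsg.Agent.Gross

open scoped commutatorElement
open Module

variable {X : Type*} [Group X] {F : Type*} [Field F] (q : ℕ) [Fact q.Prime]

/-- A normal subgroup of exponent `q` and class two, a primitive root, and an `X`-invariant central character. -/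
structure CharData (X : Type*) [Group X] (F : Type*) [Field F] (q : ℕ) where
  /-- the subgroup -/
  K : Subgroup X
  normal : K.Normal
  exp : ∀ k ∈ K, k ^ q = 1
  cls : ∀ a ∈ K, ∀ b ∈ K, ∀ c ∈ K, Commute ⁅a, b⁆ c
  /-- the character, defined on the centre of `K` -/
  χ : ↥(K ⊓ Subgroup.centralizer (K : Set X)) →* F
  inv : ∀ (g : X) (z z' : ↥(K ⊓ Subgroup.centralizer (K : Set X))), (z' : X) = g * z * g⁻¹ → χ z' = χ z
  /-- the root of unity -/
  ζ : F
  prim : IsPrimitiveRoot ζ q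

variable {q} (d : CharData X F q)

theorem CharData.comm_mem {a b : X} (ha : a ∈ d.K) (hb : b ∈ d.K) :
    ⁅a, b⁆ ∈ d.K ⊓ Subgroup.centralizer (d.K : Set X) := by
  refine Subgroup.mem_inf.2 ⟨?_, Subgroup.mem_centralizer_iff.2 fun c hc => ((d.cls a ha b hb c hc).eq).symm⟩
  rw [commutatorElement_def]
  exact d.K.mul_mem (d.K.mul_mem (d.K.mul_mem ha hb) (d.K.inv_mem ha)) (d.K.inv_mem hb)

/-- The commutator value of two elements. -/
def CharData.cv (k l : d.K) : F := d.χ ⟨⁅(k : X), (l : X)⁆, d.comm_mem k.2 l.2⟩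

theorem CharData.cv_pow (k l : d.K) : d.cv k l ^ q = 1 := by
  rw [CharData.cv, ← map_pow]
  have : (⟨⁅(k : X), (l : X)⁆, d.comm_mem k.2 l.2⟩ : ↥(d.K ⊓ Subgroup.centralizer (d.K : Set X))) ^ q = 1 :=
    Subtype.ext (d.exp _ (d.comm_mem k.2 l.2).1)
  rw [this, map_one]

theorem CharData.cv_mul_left (k k' l : d.K) : d.cv (k * k') l = d.cv k l * d.cv k' l := by
  rw [CharData.cv, CharData.cv, CharData.cv, ← map_mul]
  refine congrArg _ (Subtype.ext ?_)
  have h := d.cls _ k'.2 _ l.2 _ k.2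
  have h2 := d.cls _ k.2 _ l.2 _ (d.comm_mem k'.2 l.2).1
  show ⁅(k : X) * k', (l : X)⁆ = ⁅(k : X), (l : X)⁆ * ⁅(k' : X), (l : X)⁆
  calc ⁅(k : X) * k', (l : X)⁆ = (k : X) * ⁅(k' : X), (l : X)⁆ * (k : X)⁻¹ * ⁅(k : X), (l : X)⁆ := by
        simp only [commutatorElement_def]; group
    _ = ⁅(k' : X), (l : X)⁆ * ⁅(k : X), (l : X)⁆ := by rw [← h.eq, mul_inv_cancel_right]
    _ = _ := h2.eq.symm

theorem CharData.cv_swap (k l : d.K) : d.cv l k * d.cv k l = 1 := by
  rw [CharData.cv, CharData.cv, ← map_mul]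
  convert map_one d.χ
  refine Subtype.ext ?_
  show ⁅(l : X), (k : X)⁆ * ⁅(k : X), (l : X)⁆ = 1
  rw [← commutatorElement_inv, inv_mul_cancel]

theorem CharData.neZero : NeZero q := ⟨(Fact.out : q.Prime).ne_zero⟩

/-- The logarithm. -/
noncomputable def CharData.lg (c : F) : ZMod q :=
  haveI := Classical.propDecidable (∃ i : ℕ, d.ζ ^ i = c)
  if h : ∃ i : ℕ, d.ζ ^ i = c then (h.choose : ZMod q) else 0

theorem CharData.lg_pow (i : ℕ) : d.lg (d.ζ ^ i) = (i : ZMod q) := by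
  have h : ∃ j : ℕ, d.ζ ^ j = d.ζ ^ i := ⟨i, rfl⟩
  rw [CharData.lg, dif_pos h]
  obtain ⟨a, ha⟩ : ∃ a, a = h.choose := ⟨_, rfl⟩
  have h1 : d.ζ ^ a = d.ζ ^ i := ha ▸ h.choose_spec
  rw [← ha]
  rw [pow_eq_pow_mod a d.prim.pow_eq_one, pow_eq_pow_mod i d.prim.pow_eq_one] at h1
  have h2 := d.prim.pow_inj (Nat.mod_lt _ (Fact.out : q.Prime).pos) (Nat.mod_lt _ (Fact.out : q.Prime).pos) h1
  exact (ZMod.natCast_eq_natCast_iff' _ _ _).2 h2

theorem CharData.lg_mul {a b : F} (ha : a ^ q = 1) (hb : b ^ q = 1) :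
    d.lg (a * b) = d.lg a + d.lg b := by
  haveI : NeZero q := ⟨(Fact.out : q.Prime).ne_zero⟩
  obtain ⟨i, -, rfl⟩ := d.prim.eq_pow_of_pow_eq_one ha
  obtain ⟨j, -, rfl⟩ := d.prim.eq_pow_of_pow_eq_one hb
  rw [← pow_add, d.lg_pow, d.lg_pow, d.lg_pow, Nat.cast_add]

theorem CharData.pow_lg {a : F} (ha : a ^ q = 1) : d.ζ ^ (d.lg a).val = a := by
  haveI : NeZero q := ⟨(Fact.out : q.Prime).ne_zero⟩
  obtain ⟨i, hi, rfl⟩ := d.prim.eq_pow_of_pow_eq_one ha
  rw [d.lg_pow, ZMod.val_natCast, Nat.mod_eq_of_lt hi]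

/-- The functional of an element. -/
noncomputable def CharData.pf (k : d.K) : d.K → ZMod q := fun l => d.lg (d.cv k l)

theorem CharData.pf_mul (k k' : d.K) : d.pf (k * k') = d.pf k + d.pf k' := by
  funext l
  rw [CharData.pf, d.cv_mul_left, d.lg_mul (d.cv_pow _ _) (d.cv_pow _ _)]
  rfl

theorem CharData.pf_swap (k l : d.K) : d.pf k l = - d.pf l k := by
  rw [eq_neg_iff_add_eq_zero]
  show d.lg (d.cv k l) + d.lg (d.cv l k) = 0
  rw [← d.lg_mul (d.cv_pow _ _) (d.cv_pow _ _), mul_comm, d.cv_swap]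
  simpa using d.lg_pow 0

theorem CharData.pf_one : d.pf 1 = 0 := by
  have h := d.pf_mul 1 1
  rw [mul_one] at h
  exact left_eq_add.1 h

theorem CharData.pf_pow (k : d.K) (i : ℕ) : d.pf (k ^ i) = (i : ZMod q) • d.pf k := by
  induction i with
  | zero => rw [pow_zero, d.pf_one, Nat.cast_zero, zero_smul]
  | succ i ih => rw [pow_succ, d.pf_mul, ih, Nat.cast_succ, add_smul, one_smul]

/-- The space `K / R`. -/
def CharData.bar : Submodule (ZMod q) (d.K → ZMod q) where
  carrier := Set.range d.pf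
  add_mem' := by rintro _ _ ⟨a, rfl⟩ ⟨b, rfl⟩; exact ⟨a * b, d.pf_mul a b⟩
  zero_mem' := ⟨1, d.pf_one⟩
  smul_mem' := by
    rintro c _ ⟨a, rfl⟩
    haveI : NeZero q := ⟨(Fact.out : q.Prime).ne_zero⟩
    exact ⟨a ^ c.val, by rw [d.pf_pow, ZMod.natCast_zmod_val]⟩

/-- The class of an element. -/
noncomputable def CharData.cls' (k : d.K) : d.bar := ⟨d.pf k, k, rfl⟩

theorem CharData.exists_cls (u : d.bar) : ∃ k, d.cls' k = u := by
  obtain ⟨_, k, rfl⟩ := u; exact ⟨k, rfl⟩

/-- A lift. -/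
noncomputable def CharData.lift (u : d.bar) : d.K := (d.exists_cls u).choose

theorem CharData.cls_lift (u : d.bar) : d.cls' (d.lift u) = u := (d.exists_cls u).choose_spec

theorem CharData.cls_mul (k k' : d.K) : d.cls' (k * k') = d.cls' k + d.cls' k' :=
  Subtype.ext (d.pf_mul k k')

theorem CharData.cls_inv (k : d.K) : d.cls' k⁻¹ = -d.cls' k := by
  rw [eq_neg_iff_add_eq_zero, ← d.cls_mul, inv_mul_cancel]
  exact Subtype.ext d.pf_one

theorem CharData.apply_eq (u : d.bar) (l : d.K) : u.1 l = d.pf (d.lift u) l :=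
  congrFun (congrArg Subtype.val (d.cls_lift u)).symm l

theorem CharData.apply_lift_cls (u : d.bar) (l : d.K) : u.1 (d.lift (d.cls' l)) = u.1 l := by
  rw [d.apply_eq, d.apply_eq u l, d.pf_swap, d.pf_swap (d.lift u) l]
  exact congrArg Neg.neg (congrFun (congrArg Subtype.val (d.cls_lift (d.cls' l))) _)

theorem CharData.apply_lift_swap (u w : d.bar) : u.1 (d.lift w) = - w.1 (d.lift u) := by
  rw [d.apply_eq, d.apply_eq w, d.pf_swap]

/-- The commutator form. -/
noncomputable def CharData.form : d.bar →ₗ[ZMod q] d.bar →ₗ[ZMod q] ZMod q :=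
  LinearMap.mk₂ (ZMod q) (fun u w => u.1 (d.lift w))
    (fun u u' w => rfl) (fun c u w => rfl)
    (fun u w w' => by
      rw [d.apply_lift_swap, d.apply_lift_swap u w, d.apply_lift_swap u w']
      simp [Submodule.coe_add, add_comm])
    (fun c u w => by
      rw [d.apply_lift_swap, d.apply_lift_swap u w]
      simp)

theorem CharData.form_cls (k l : d.K) : d.form (d.cls' k) (d.cls' l) = d.pf k l :=
  show (d.cls' k).1 (d.lift (d.cls' l)) = (d.cls' k).1 l from d.apply_lift_cls _ _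

theorem CharData.cv_eq (k l : d.K) : d.cv k l = d.ζ ^ (d.form (d.cls' k) (d.cls' l)).val := by
  rw [d.form_cls, CharData.pf, d.pow_lg (d.cv_pow k l)]

theorem CharData.form_alt (u : d.bar) : d.form u u = 0 := by
  obtain ⟨k, rfl⟩ := d.exists_cls u
  rw [d.form_cls]
  have h : d.cv k k = 1 := by
    rw [CharData.cv]
    rw [← map_one d.χ]
    exact congrArg _ (Subtype.ext (commutatorElement_self _))
  rw [CharData.pf, h]
  simpa using d.lg_pow 0

theorem CharData.form_nondeg (v : d.bar) (h : ∀ u, d.form u v = 0) : v = 0 := by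
  obtain ⟨k, rfl⟩ := d.exists_cls v
  refine Subtype.ext (funext fun l => ?_)
  have := h (d.cls' l)
  rw [d.form_cls, d.pf_swap, neg_eq_zero] at this
  exact this

/-- Conjugation on `K`. -/
def CharData.cj (g : X) (k : d.K) : d.K := ⟨g * k * g⁻¹, d.normal.conj_mem _ k.2 g⟩

theorem CharData.cv_cj (g : X) (k l : d.K) : d.cv (d.cj g k) (d.cj g l) = d.cv k l := by
  refine d.inv g _ _ ?_
  simp only [CharData.cj, commutatorElement_def]
  group

theorem CharData.pf_cj (g : X) (k l : d.K) : d.pf (d.cj g k) l = d.pf k (d.cj g⁻¹ l) := by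
  have h : d.cj g (d.cj g⁻¹ l) = l := Subtype.ext (by simp only [CharData.cj]; group)
  conv_lhs => rw [← h]
  rw [CharData.pf, CharData.pf, d.cv_cj]

/-- The action on `K / R`. -/
noncomputable def CharData.act : X →* Module.End (ZMod q) d.bar where
  toFun g :=
    { toFun := fun u => ⟨fun l => u.1 (d.cj g⁻¹ l), by
        obtain ⟨k, rfl⟩ := d.exists_cls u
        exact ⟨d.cj g k, funext fun l => d.pf_cj g k l⟩⟩
      map_add' := fun u u' => rfl
      map_smul' := fun c u => rfl }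
  map_one' := LinearMap.ext fun u => Subtype.ext (funext fun l => by
    show u.1 (d.cj 1⁻¹ l) = u.1 l
    refine congrArg u.1 (Subtype.ext ?_); exact (by show (1 : X)⁻¹ * l * (1 : X)⁻¹⁻¹ = l; group))
  map_mul' g g' := LinearMap.ext fun u => Subtype.ext (funext fun l => by
    show u.1 (d.cj (g * g')⁻¹ l) = u.1 (d.cj g'⁻¹ (d.cj g⁻¹ l))
    refine congrArg u.1 (Subtype.ext ?_); exact (by show (g * g')⁻¹ * l * (g * g')⁻¹⁻¹ = g'⁻¹ * (g⁻¹ * l * g⁻¹⁻¹) * g'⁻¹⁻¹; group))

theorem CharData.act_cls (g : X) (k : d.K) : d.act g (d.cls' k) = d.cls' (d.cj g k) :=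
  Subtype.ext (funext fun l => (d.pf_cj g k l).symm)

theorem CharData.isIsoRep : IsIsoRep d.act d.form := by
  refine ⟨d.form_alt, d.form_nondeg, fun g u v => ?_⟩
  obtain ⟨k, rfl⟩ := d.exists_cls u
  obtain ⟨l, rfl⟩ := d.exists_cls v
  rw [d.act_cls, d.act_cls, d.form_cls, d.form_cls, CharData.pf, CharData.pf, d.cv_cj]

instance CharData.finite_bar [Finite X] : Module.Finite (ZMod q) d.bar :=
  haveI : NeZero q := ⟨(Fact.out : q.Prime).ne_zero⟩
  Module.Finite.of_finite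

end Cfsg.Agent.Gross
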