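import Mathlib.LinearAlgebra.FiniteDimensional.Lemmas
import Mathlib.LinearAlgebra.Dimension.RankNullity
import Mathlib.Tactic.Ring

/-!
# Nilpotent operators without a block of maximal size

For `D` with `D ^ (2 * h - 1) = 0` the "homology" `ker D ^ h / range D ^ h` controls the dimension.
-/

set_option autoImplicit false
set_option linter.unusedSectionVars false

namespace Cfsg.Agent.Gross

open Module LinearMap

variable {F : Type*} [Field F] {V : Type*} [AddCommGroup V] [Module F V] [FiniteDimensional F V]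

/-- Number of Jordan blocks of size bigger than `i`. -/
noncomputable def blocks (D : Module.End F V) (i : ℕ) : ℕ :=
  finrank F ↥(ker D ⊓ range (D ^ i))

/-- Rank of the `i`-th power. -/
noncomputable def rnk (D : Module.End F V) (i : ℕ) : ℕ := finrank F ↥(range (D ^ i))

/-- Dimension of `ker D ^ h / range D ^ h`. -/
noncomputable def hdim (D : Module.End F V) (h : ℕ) : ℕ :=
  finrank F ↥(ker (D ^ h)) - finrank F ↥(range (D ^ h))

theorem rnk_eq (D : Module.End F V) (i : ℕ) : rnk D i = blocks D i + rnk D (i + 1) := by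
  have h := (D.domRestrict (range (D ^ i))).finrank_range_add_finrank_ker
  have hr : range (D.domRestrict (range (D ^ i))) = range (D ^ (i + 1)) := by
    rw [LinearMap.range_domRestrict, pow_succ', Module.End.mul_eq_comp, LinearMap.range_comp]
  have hk : finrank F ↥(ker (D.domRestrict (range (D ^ i)))) = blocks D i := by
    rw [LinearMap.ker_domRestrict, blocks, inf_comm]
    exact (Submodule.comapSubtypeEquivOfLe (inf_le_left : range (D ^ i) ⊓ ker D ≤ range (D ^ i))).finrank_eq ▸
      (by rw [Submodule.comap_inf, Submodule.comap_subtype_self, top_inf_eq])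
  rw [hr, hk] at h
  unfold rnk
  omega

theorem range_pow_anti (D : Module.End F V) {i j : ℕ} (h : i ≤ j) : range (D ^ j) ≤ range (D ^ i) := by
  obtain ⟨k, rfl⟩ := Nat.exists_eq_add_of_le h
  rw [pow_add, Module.End.mul_eq_comp]
  exact LinearMap.range_comp_le_range _ _

theorem blocks_anti (D : Module.End F V) {i j : ℕ} (h : i ≤ j) : blocks D j ≤ blocks D i :=
  Submodule.finrank_mono (inf_le_inf_left _ (range_pow_anti D h))

theorem rnk_sum (D : Module.End F V) (i : ℕ) :
    ∀ k, rnk D i = (∑ t ∈ Finset.range k, blocks D (i + t)) + rnk D (i + k) := by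
  intro k
  induction k with
  | zero => simp
  | succ k ih => rw [ih, Finset.sum_range_succ, rnk_eq D (i + k), add_assoc, add_assoc]

theorem rnk_eq_zero {D : Module.End F V} {N i : ℕ} (h : D ^ N = 0) (hi : N ≤ i) : rnk D i = 0 := by
  have : D ^ i = 0 := pow_eq_zero_of_le hi h
  simp [rnk, this]

theorem rnk_zero (D : Module.End F V) : rnk D 0 = finrank F V := by
  rw [rnk, pow_zero, Module.End.one_eq_id, LinearMap.range_id, finrank_top]

section bound

variable {D : Module.End F V} {h : ℕ}

theorem rnk_main (hh : 1 ≤ h) (hD : D ^ (2 * h - 1) = 0) :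
    rnk D h = (∑ t ∈ Finset.range h, blocks D (h + t)) ∧
      finrank F V = (∑ t ∈ Finset.range h, blocks D t) + rnk D h ∧
      hdim D h + rnk D h = ∑ t ∈ Finset.range h, blocks D t ∧ blocks D (2 * h - 1) = 0 := by
  have h1 := rnk_sum D h h
  rw [rnk_eq_zero hD (show 2 * h - 1 ≤ h + h by omega), add_zero] at h1
  have h2 := rnk_sum D 0 h
  simp only [zero_add] at h2
  rw [rnk_zero] at h2
  have h3 := (D ^ h).finrank_range_add_finrank_ker
  have h4 : range (D ^ h) ≤ ker (D ^ h) := by
    rintro _ ⟨v, rfl⟩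
    rw [LinearMap.mem_ker, ← Module.End.mul_apply, ← pow_add,
      pow_eq_zero_of_le (show 2 * h - 1 ≤ h + h by omega) hD]
    rfl
  have h5 := Submodule.finrank_mono h4
  refine ⟨h1, h2, ?_, ?_⟩
  · unfold hdim; unfold rnk at h2 ⊢; omega
  · have : range (D ^ (2 * h - 1)) = ⊥ := by rw [hD, LinearMap.range_zero]
    simp [blocks, this]

theorem blocks_le_hdim (hh : 1 ≤ h) (hD : D ^ (2 * h - 1) = 0) :
    blocks D (h - 1) + ∑ t ∈ Finset.range (h - 1), blocks D t ≤
      hdim D h + ∑ t ∈ Finset.range (h - 1), blocks D (h + t) := by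
  obtain ⟨h1, -, h3, h4⟩ := rnk_main hh hD
  obtain ⟨k, rfl⟩ : ∃ k, h = k + 1 := ⟨h - 1, by omega⟩
  rw [Finset.sum_range_succ] at h1
  rw [show k + 1 + k = 2 * (k + 1) - 1 by omega, h4, add_zero] at h1
  rw [Finset.sum_range_succ, h1] at h3
  simp only [Nat.add_sub_cancel]
  omega

theorem blocks_pred_le_hdim (hh : 1 ≤ h) (hD : D ^ (2 * h - 1) = 0) :
    blocks D (h - 1) ≤ hdim D h := by
  have := blocks_le_hdim hh hD
  have h2 : ∑ t ∈ Finset.range (h - 1), blocks D (h + t) ≤ ∑ t ∈ Finset.range (h - 1), blocks D t :=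
    Finset.sum_le_sum fun t _ => blocks_anti D (by omega)
  omega

theorem rnk_le_mul_hdim (hh : 1 ≤ h) (hD : D ^ (2 * h - 1) = 0) :
    rnk D h ≤ (h - 1) * hdim D h := by
  obtain ⟨h1, -, -, h4⟩ := rnk_main hh hD
  obtain ⟨k, rfl⟩ : ∃ k, h = k + 1 := ⟨h - 1, by omega⟩
  rw [Finset.sum_range_succ, show k + 1 + k = 2 * (k + 1) - 1 by omega, h4, add_zero] at h1
  rw [h1, Nat.add_sub_cancel]
  have hb := blocks_pred_le_hdim hh hD
  refine le_trans (Finset.sum_le_card_nsmul _ _ (hdim D (k + 1)) fun t _ => ?_) (by simp)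
  exact (blocks_anti D (by omega)).trans hb

/-- Without a block of size `2 * h` the dimension is at most `(2 * h - 1)` times the homology. -/
theorem finrank_le_mul_hdim (hh : 1 ≤ h) (hD : D ^ (2 * h - 1) = 0) :
    finrank F V ≤ (2 * h - 1) * hdim D h := by
  obtain ⟨-, h2, h3, -⟩ := rnk_main hh hD
  have h5 := rnk_le_mul_hdim hh hD
  obtain ⟨k, rfl⟩ : ∃ k, h = k + 1 := ⟨h - 1, by omega⟩
  rw [Nat.add_sub_cancel] at h5
  rw [show 2 * (k + 1) - 1 = 2 * k + 1 by omega, show (2 * k + 1) * hdim D (k + 1) =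
    2 * (k * hdim D (k + 1)) + hdim D (k + 1) by ring]
  omega

/-- In case of equality `D` acts trivially on the homology. -/
theorem apply_mem_range_of_eq (hh : 1 ≤ h) (hD : D ^ (2 * h - 1) = 0)
    (heq : finrank F V = (2 * h - 1) * hdim D h) {v : V} (hv : (D ^ h) v = 0) :
    D v ∈ range (D ^ h) := by
  obtain ⟨h1, h2, h3, h4⟩ := rnk_main hh hD
  have h5 := rnk_le_mul_hdim hh hD
  have h6 := blocks_pred_le_hdim hh hD
  obtain ⟨k, rfl⟩ : ∃ k, h = k + 1 := ⟨h - 1, by omega⟩
  rw [Nat.add_sub_cancel] at h5 h6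
  rw [show 2 * (k + 1) - 1 = 2 * k + 1 by omega, show (2 * k + 1) * hdim D (k + 1) =
    2 * (k * hdim D (k + 1)) + hdim D (k + 1) by ring] at heq
  have hk : rnk D (k + 1) = k * hdim D (k + 1) := by omega
  have hker : finrank F ↥(ker (D ^ (k + 1))) ≤ rnk D k := by
    have e := rnk_eq D k
    have e2 := (D ^ (k + 1)).finrank_range_add_finrank_ker
    have hb : hdim D (k + 1) ≤ blocks D k := by
      rcases Nat.eq_zero_or_pos k with rfl | hk0
      · simp only [Finset.sum_range_succ, Finset.sum_range_zero, zero_add] at h2 h3 ⊢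
        omega
      · rw [Finset.sum_range_succ, show k + 1 + k = 2 * (k + 1) - 1 by omega, h4, add_zero] at h1
        have hle : ∀ t ∈ Finset.range k, blocks D (k + 1 + t) ≤ hdim D (k + 1) := fun t _ =>
          (blocks_anti D (by omega)).trans h6
        have hall := (Finset.sum_eq_sum_iff_of_le hle).1 (by rw [← h1, hk]; simp)
        have := hall 0 (Finset.mem_range.2 hk0)
        rw [← this]
        exact blocks_anti D (by omega)
    unfold rnk at e e2 hk ⊢
    omega
  have hle : range (D ^ k) ≤ ker (D ^ (k + 1)) := by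
    rintro _ ⟨w, rfl⟩
    rw [LinearMap.mem_ker, ← Module.End.mul_apply, ← pow_add,
      pow_eq_zero_of_le (show 2 * (k + 1) - 1 ≤ k + 1 + k by omega) hD]
    rfl
  have heq2 := Submodule.eq_of_le_of_finrank_le hle hker
  have hvm : v ∈ range (D ^ k) := heq2 ▸ hv
  obtain ⟨w, rfl⟩ := hvm
  exact ⟨w, by rw [← Module.End.mul_apply, ← pow_succ']⟩

/-- If `ker D ^ h` is `C` up to `range D ^ h`, then the homology is at most `dim C`. -/
theorem hdim_le_of_ker_le (C : Submodule F V) (hC : ker (D ^ h) ≤ C ⊔ range (D ^ h)) :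
    hdim D h ≤ finrank F ↥C := by
  have h1 := Submodule.finrank_mono hC
  have h2 := Submodule.finrank_sup_add_finrank_inf_eq C (range (D ^ h))
  unfold hdim
  omega

theorem hdim_pos [Nontrivial V] (hh : 1 ≤ h) (hD : D ^ (2 * h - 1) = 0) : 0 < hdim D h := by
  have h1 := finrank_le_mul_hdim hh hD
  have h2 : 0 < finrank F V := finrank_pos
  rcases Nat.eq_zero_or_pos (hdim D h) with h0 | h0
  · rw [h0, mul_zero] at h1; omega
  · exact h0

end bound

end Cfsg.Agent.Gross
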