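import Cfsg.Agent.Gross.Char
import Cfsg.Agent.Gross.Jordan
import Mathlib.LinearAlgebra.Eigenspace.Basic
import Mathlib.LinearAlgebra.DFinsupp
import Mathlib.Algebra.CharP.Two

/-!
# Elements without a free summand on a component

If a 2-element `y` fixes the central character and acts on the component without a block of maximal size,
then it is a reflection on `K / R`.
-/

set_option autoImplicit false
set_option linter.unusedSectionVars false
set_option linter.style.haveILetI false

namespace Cfsg.Agent.Gross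

open scoped commutatorElement
open Module LinearMap

variable {X : Type*} [Group X] [Finite X] {F : Type*} [Field F] [CharP F 2] {q : ℕ} [Fact q.Prime]
  {V : Type*} [AddCommGroup V] [Module F V] [FiniteDimensional F V]
  (d : CharData X F q) (ρ : X →* Module.End F V)

/-- The centre acts by the character. -/
def CentralBy : Prop :=
  ∀ (z : ↥(d.K ⊓ Subgroup.centralizer (d.K : Set X))) (v : V), ρ z v = d.χ z • v

variable {d ρ}

theorem rho_apply_inv (ρ : X →* Module.End F V) (g : X) (v : V) : ρ g (ρ g⁻¹ v) = v := by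
  rw [← Module.End.mul_apply, ← map_mul, mul_inv_cancel, map_one, Module.End.one_apply]

theorem rho_inj (ρ : X →* Module.End F V) (g : X) : Function.Injective (ρ g) := fun a b h => by
  have := congrArg (ρ g⁻¹) h
  rwa [← Module.End.mul_apply, ← Module.End.mul_apply, ← map_mul, inv_mul_cancel, map_one,
    Module.End.one_apply, Module.End.one_apply] at this

theorem rho_comm (hZ : CentralBy d ρ) (k l : d.K) (v : V) :
    ρ k (ρ l v) = d.cv k l • ρ l (ρ k v) := by
  have e : (k : X) * l = ⁅(k : X), (l : X)⁆ * ((l : X) * k) := by rw [commutatorElement_def]; group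
  rw [← Module.End.mul_apply, ← map_mul, e, map_mul, Module.End.mul_apply,
    ← Module.End.mul_apply (f := ρ l), ← map_mul]
  exact hZ ⟨_, d.comm_mem k.2 l.2⟩ _

theorem rho_commute (hZ : CentralBy d ρ) {k l : d.K} (h : d.form (d.cls' k) (d.cls' l) = 0) (v : V) :
    ρ k (ρ l v) = ρ l (ρ k v) := by
  rw [rho_comm hZ, d.cv_eq, h, ZMod.val_zero, pow_zero, one_smul]

/-- The lifts in `K` of vectors of `A` inverted by `τ`. -/
def lifts (d : CharData X F q) (τ : X) (A : Submodule (ZMod q) d.bar) : Set d.K :=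
  {k | d.cls' k ∈ A ∧ d.cj τ k = k⁻¹}

/-- The fixed vectors of the lifts. -/
def fixA (d : CharData X F q) (ρ : X →* Module.End F V) (τ : X) (A : Submodule (ZMod q) d.bar) :
    Submodule F V :=
  ⨅ k ∈ lifts d τ A, ker (ρ (k : X) - 1)

theorem mem_fixA {τ : X} {A : Submodule (ZMod q) d.bar} {v : V} :
    v ∈ fixA d ρ τ A ↔ ∀ k ∈ lifts d τ A, ρ (k : X) v = v := by
  simp only [fixA, Submodule.mem_iInf, LinearMap.mem_ker, LinearMap.sub_apply, Module.End.one_apply,
    sub_eq_zero]

theorem cj_apply_apply {τ : X} (hτ : τ * τ = 1) (k : d.K) : d.cj τ (d.cj τ k) = k := by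
  refine Subtype.ext ?_
  show τ * (τ * k * τ⁻¹) * τ⁻¹ = k
  rw [← mul_assoc τ, ← mul_assoc τ, hτ, one_mul, mul_assoc, ← mul_inv_rev, hτ, inv_one, mul_one]

theorem cj_mul (g : X) (k l : d.K) : d.cj g (k * l) = d.cj g k * d.cj g l :=
  Subtype.ext (by show g * ((k : X) * l) * g⁻¹ = g * k * g⁻¹ * (g * l * g⁻¹); group)

theorem cj_inv (g : X) (k : d.K) : d.cj g k⁻¹ = (d.cj g k)⁻¹ :=
  Subtype.ext (by show g * (k : X)⁻¹ * g⁻¹ = (g * k * g⁻¹)⁻¹; group)

/-- Every vector of the commutator space has a lift inverted by `τ`. -/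
theorem exists_inverted_lift {τ : X} (hτ : τ * τ = 1) {a : d.bar} (ha : a ∈ moved d.act τ) :
    ∃ k : d.K, d.cls' k = a ∧ d.cj τ k = k⁻¹ := by
  obtain ⟨w, rfl⟩ := ha
  obtain ⟨l, rfl⟩ := d.exists_cls w
  refine ⟨l⁻¹ * d.cj τ l, ?_, ?_⟩
  · rw [d.cls_mul, d.cls_inv, LinearMap.sub_apply, Module.End.one_apply, d.act_cls, neg_add_eq_sub]
  · rw [cj_mul, cj_inv, cj_apply_apply hτ, mul_inv_rev, inv_inv]

/-- The index bound: `q ^ dim A` times the fixed space of an isotropic `A` is at most `dim V`. -/
theorem pow_mul_finrank_fixA_le (hZ : CentralBy d ρ) {τ : X} (hτ : τ * τ = 1)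
    (hpair : ∀ (A : Submodule (ZMod q) d.bar) (a : d.bar), A ≤ moved d.act τ → a ∈ moved d.act τ → a ∉ A →
      ∃ b, d.form a b = 1 ∧ ∀ x ∈ A, d.form x b = 0) :
    ∀ (r : ℕ) (A : Submodule (ZMod q) d.bar), A ≤ moved d.act τ → A ≤ orth d.form A →
      finrank (ZMod q) ↥A = r → q ^ r * finrank F ↥(fixA d ρ τ A) ≤ finrank F V := by
  haveI : NeZero q := ⟨(Fact.out : q.Prime).ne_zero⟩
  intro r
  induction r with
  | zero => intro A _ _ _; rw [pow_zero, one_mul]; exact Submodule.finrank_le _
  | succ r ih =>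
    intro A hA hiso hr
    have hne : A ≠ ⊥ := by intro h; rw [h, finrank_bot] at hr; omega
    obtain ⟨a, ha, ha0⟩ := Submodule.exists_mem_ne_zero_of_ne_bot hne
    obtain ⟨f, hfa, -⟩ := Submodule.exists_dual_map_eq_bot_of_notMem
      (R := ZMod q) (p := (⊥ : Submodule (ZMod q) d.bar)) (x := a) (by simpa using ha0) inferInstance
    set A' := A ⊓ ker f with hA'
    have haA' : a ∉ A' := fun h => hfa (LinearMap.mem_ker.1 h.2)
    have hA'r : finrank (ZMod q) ↥A' = r := by
      have hlt : A' < A := lt_of_le_of_ne inf_le_left fun h => haA' (h ▸ ha)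
      have h1 := Submodule.finrank_lt_finrank_of_lt hlt
      have h2 := Submodule.finrank_sup_add_finrank_inf_eq A (ker f)
      have h3 := f.finrank_range_add_finrank_ker
      have h4 : finrank (ZMod q) ↥(range f) ≤ 1 := (Submodule.finrank_le _).trans (finrank_self _).le
      have h5 := Submodule.finrank_le (A ⊔ ker f)
      rw [← hA'] at h2
      omega
    have IH := ih A' (inf_le_left.trans hA)
      (fun x hx y hy => hiso hx.1 y hy.1) hA'r
    obtain ⟨b, hab, hAb⟩ := hpair A' a (inf_le_left.trans hA) (hA ha) haA'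
    obtain ⟨ka, hka, hkai⟩ := exists_inverted_lift hτ (hA ha)
    obtain ⟨kb, hkb⟩ := d.exists_cls b
    set M' := fixA d ρ τ A'
    set C0 := fixA d ρ τ A
    have hC0 : C0 ≤ M' := by
      intro v hv
      rw [mem_fixA] at hv ⊢
      exact fun k hk => hv k ⟨hk.1.1, hk.2⟩
    have hpres : ∀ k : d.K, (∀ x ∈ A', d.form x (d.cls' k) = 0) → ∀ v ∈ M', ρ (k : X) v ∈ M' := by
      intro k hk v hv
      rw [mem_fixA] at hv ⊢
      intro l hl
      rw [rho_commute hZ (hk _ hl.1), hv l hl]
    have hbpow : ∀ (i : ℕ), ∀ v ∈ M', ((ρ (kb : X)) ^ i) v ∈ M' := by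
      intro i
      induction i with
      | zero => intro v hv; simpa using hv
      | succ i ih =>
        intro v hv
        rw [pow_succ', Module.End.mul_apply]
        exact hpres kb (hkb ▸ hAb) _ (ih v hv)
    have heig : ∀ (i : ℕ), ∀ v ∈ C0,
        ρ (ka : X) (((ρ (kb : X)) ^ i) v) = d.ζ ^ i • ((ρ (kb : X)) ^ i) v := by
      intro i
      induction i with
      | zero =>
        intro v hv
        simpa using mem_fixA.1 hv ka ⟨hka ▸ ha, hkai⟩
      | succ i ih =>
        intro v hv
        rw [pow_succ', Module.End.mul_apply, rho_comm hZ, ih v hv, map_smul, smul_smul, d.cv_eq, hka, hkb,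
          hab, ZMod.val_one, pow_one, pow_succ']
    let Φ : (Fin q → C0) →ₗ[F] M' :=
      LinearMap.codRestrict M'
        (∑ i : Fin q, (((ρ (kb : X)) ^ (i : ℕ)).comp C0.subtype).comp (LinearMap.proj i))
        (fun v => by
          rw [LinearMap.sum_apply]
          exact Submodule.sum_mem _ fun i _ => hbpow _ _ (hC0 (v i).2))
    have hΦ : Function.Injective Φ := by
      refine (injective_iff_map_eq_zero Φ).2 fun v hv => ?_
      have hsum : ∑ i : Fin q, ((ρ (kb : X)) ^ (i : ℕ)) (v i) = 0 := by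
        have := congrArg Subtype.val hv
        simpa [Φ, LinearMap.sum_apply] using this
      have hind := (Module.End.eigenspaces_iSupIndep (ρ (ka : X))).comp
        (f := fun i : Fin q => d.ζ ^ (i : ℕ))
        (fun i j h => Fin.ext (d.prim.pow_inj i.2 j.2 h))
      rw [iSupIndep_iff_finset_sum_eq_zero_imp_eq_zero] at hind
      funext i
      have h0 := hind Finset.univ (fun i => ((ρ (kb : X)) ^ (i : ℕ)) (v i))
        (fun j _ => Module.End.mem_eigenspace_iff.2 (heig _ _ (v j).2)) hsum i (Finset.mem_univ i)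
      refine Subtype.ext ?_
      have hinj : Function.Injective ((ρ (kb : X)) ^ (i : ℕ)) := by
        refine Function.LeftInverse.injective (g := ⇑((ρ ((kb : X)⁻¹)) ^ (i : ℕ))) fun x => ?_
        rw [← Module.End.mul_apply, ← Commute.mul_pow, ← map_mul, inv_mul_cancel, map_one, one_pow,
          Module.End.one_apply]
        rw [Commute, SemiconjBy, ← map_mul, ← map_mul, inv_mul_cancel, mul_inv_cancel]
      exact hinj (h0.trans (map_zero _).symm)
    have hle := LinearMap.finrank_le_finrank_of_injective hΦ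
    rw [Module.finrank_pi_fintype, Finset.sum_const, Finset.card_univ, Fintype.card_fin, smul_eq_mul] at hle
    calc q ^ (r + 1) * finrank F ↥C0 = q ^ r * (q * finrank F ↥C0) := by ring
      _ ≤ q ^ r * finrank F ↥M' := Nat.mul_le_mul_left _ hle
      _ ≤ _ := IH

theorem rho_cj_apply (g : X) (k : d.K) (v : V) : ρ g (ρ (k : X) v) = ρ (d.cj g k : X) (ρ g v) := by
  rw [← Module.End.mul_apply, ← map_mul, ← Module.End.mul_apply (f := ρ ((d.cj g k : d.K) : X)), ← map_mul]
  congr 2
  show g * (k : X) = g * k * g⁻¹ * g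
  group

/-- Fixed vectors of `τ` are fixed by the lifts up to `[V, τ]`. -/
theorem ker_le_fixA_sup (hZ : CentralBy d ρ) (hq2 : q ≠ 2) {τ : X}
    {A : Submodule (ZMod q) d.bar} (hiso : A ≤ orth d.form A) :
    ker (ρ τ - 1) ≤ fixA d ρ τ A ⊔ range (ρ τ - 1) := by
  classical
  haveI : Fintype d.K := Fintype.ofFinite _
  haveI : CharP F 2 := inferInstance
  obtain ⟨r, hr⟩ : Odd q := (Fact.out : q.Prime).odd_of_ne_two hq2
  suffices h : ∀ S : Finset d.K, ↑S ⊆ lifts d τ A → ∀ v, ρ τ v = v →
      ∃ c, ρ τ c = c ∧ (∀ k ∈ S, ρ (k : X) c = c) ∧ v - c ∈ range (ρ τ - 1) by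
    intro v hv
    rw [LinearMap.mem_ker, LinearMap.sub_apply, Module.End.one_apply, sub_eq_zero] at hv
    obtain ⟨c, -, hc, hvc⟩ := h (Finset.univ.filter (· ∈ lifts d τ A)) (by intro x hx; simpa using hx) v hv
    exact Submodule.mem_sup.2 ⟨c, mem_fixA.2 fun k hk => hc k (by simp [hk]), v - c, hvc, by abel⟩
  intro S
  induction S using Finset.induction_on with
  | empty => exact fun _ v hv => ⟨v, hv, by simp, by simp⟩
  | @insert k S hkS ih =>
    intro hS v hv
    rw [Finset.coe_insert, Set.insert_subset_iff] at hS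
    obtain ⟨c, hcτ, hcS, hvc⟩ := ih hS.2 v hv
    set R := ρ (k : X)
    have hRq : R ^ q = 1 := by rw [← map_pow, d.exp _ k.2, map_one]
    have hτk : ∀ (i : ℕ) x, i ≤ q → ρ τ x = x → ρ τ ((R ^ i) x) = (R ^ (q - i)) x := by
      intro i x hi hx
      have h1 : ∀ (i : ℕ) y, ρ τ ((R ^ i) y) = ((ρ ((k : X)⁻¹)) ^ i) (ρ τ y) := by
        intro i
        induction i with
        | zero => intro y; simp
        | succ i ih =>
          intro y
          rw [pow_succ, Module.End.mul_apply, ih, pow_succ, Module.End.mul_apply]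
          congr 1
          rw [rho_cj_apply τ k, hS.1.2]
          rfl
      rw [h1, hx]
      have hinv : ρ ((k : X)⁻¹) = R ^ (q - 1) := by
        rw [← map_pow]; congr 1
        refine inv_eq_of_mul_eq_one_right ?_
        rw [← pow_succ', Nat.sub_add_cancel (Fact.out : q.Prime).one_le, d.exp _ k.2]
      rw [hinv, ← pow_mul]
      obtain ⟨j, hj⟩ := Nat.exists_eq_add_of_le hi
      rcases Nat.eq_zero_or_pos i with rfl | hi0
      · simp [hRq]
      · have e : (q - 1) * i = q * (i - 1) + (q - i) := by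
          obtain ⟨i', rfl⟩ : ∃ i', i = i' + 1 := ⟨i - 1, by omega⟩
          subst hj
          simp only [Nat.add_sub_cancel, Nat.add_sub_cancel_left]
          rw [show i' + 1 + j - 1 = i' + j by omega]
          ring
        rw [e, pow_add, pow_mul, hRq, one_pow, one_mul]
    set c' := ∑ i ∈ Finset.range q, (R ^ i) c with hc'
    set u := ∑ i ∈ Finset.range r, (R ^ (i + 1)) c with hu
    have hsplit : c' = c + (u + ρ τ u) := by
      rw [hc', hr, Finset.sum_range_succ', show 2 * r = r + r by ring, Finset.sum_range_add, hu, map_sum,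
        pow_zero, Module.End.one_apply, add_comm _ c]
      congr 2
      rw [← Finset.sum_range_reflect (fun i => ρ τ ((R ^ (i + 1)) c)) r]
      refine Finset.sum_congr rfl fun i hi => ?_
      rw [Finset.mem_range] at hi
      rw [hτk _ _ (by omega) hcτ]
      congr 2
      omega
    refine ⟨c', ?_, ?_, ?_⟩
    · rw [hsplit, map_add, map_add, hcτ]
      have : ρ τ (ρ τ u) = u := by
        rw [hu, map_sum, map_sum]
        refine Finset.sum_congr rfl fun i hi => ?_
        rw [Finset.mem_range] at hi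
        have h1 := hτk (i + 1) c (by omega) hcτ
        rw [h1, hτk _ c (by omega) hcτ]
        congr 2
        omega
      rw [this, add_comm (ρ τ u)]
    · intro l hl
      rw [Finset.mem_insert] at hl
      rcases hl with rfl | hl
      · show R c' = c'
        rw [hc', map_sum]
        obtain ⟨m, hm⟩ : ∃ m, q = m + 1 := ⟨q - 1, by have := (Fact.out : q.Prime).one_le; omega⟩
        rw [hm, Finset.sum_range_succ, Finset.sum_range_succ']
        congr 1
        · exact Finset.sum_congr rfl fun i _ => by rw [← Module.End.mul_apply, ← pow_succ']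
        · rw [← Module.End.mul_apply, ← pow_succ', ← hm, hRq, pow_zero]
      · rw [hc', map_sum]
        refine Finset.sum_congr rfl fun i hi => ?_
        clear hi
        have hc2 := hcS l hl
        have hlA : d.form (d.cls' l) (d.cls' k) = 0 := hiso (hS.1).1 _ (hS.2 hl).1
        clear_value c' u
        induction i with
        | zero => simpa using hc2
        | succ i ih =>
          rw [pow_succ', Module.End.mul_apply]
          show ρ (l : X) (ρ (k : X) ((R ^ i) c)) = ρ (k : X) ((R ^ i) c)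
          rw [rho_commute hZ hlA, ih]
    · rw [show v - c' = (v - c) - (u + ρ τ u) by rw [hsplit]; abel]
      refine Submodule.sub_mem _ hvc ⟨u, ?_⟩
      rw [LinearMap.sub_apply, Module.End.one_apply]
      have hneg : -u = u := by
        rw [← neg_one_smul F u, CharTwo.neg_eq, one_smul]
      rw [sub_eq_add_neg, hneg, add_comm]

set_option maxHeartbeats 1600000 in
/-- **Component lemma.** -/
theorem component_refl [Nontrivial V] (hZ : CentralBy d ρ) (hq2 : q ≠ 2) {y : X} {n : ℕ} (hn : 1 ≤ n)
    (hy : y ^ 2 ^ n = 1) (hexc : (ρ y - 1) ^ (2 ^ n - 1) = 0)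
    (hτ : d.act (y ^ 2 ^ (n - 1)) ≠ 1) :
    IsReflPrime q n ∧ IsRefl d.act n y := by
  haveI : NeZero q := ⟨(Fact.out : q.Prime).ne_zero⟩
  have hσ := d.isIsoRep
  set τ := y ^ 2 ^ (n - 1) with hτdef
  have h2n : 2 ^ n = 2 ^ (n - 1) + 2 ^ (n - 1) := by
    rw [← Nat.two_mul, ← pow_succ', Nat.sub_add_cancel hn]
  have hττ : τ * τ = 1 := by rw [hτdef, ← pow_add, ← h2n, hy]
  set E := moved d.act τ with hE
  have h2 := two_ne_zero_zmod (q := q) hq2
  have hneg : ∀ e ∈ E, d.act τ e = -e := by
    rintro _ ⟨w, rfl⟩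
    rw [LinearMap.sub_apply, Module.End.one_apply, map_sub, ← Module.End.mul_apply, ← map_mul, hττ,
      map_one, Module.End.one_apply, neg_sub]
  have hperpC : ∀ e ∈ E, ∀ c, d.act τ c = c → d.form e c = 0 := by
    intro e he c hc
    exact ((hσ.fixed_iff τ c).1 hc) e he
  have hsplit : ∀ v : d.bar, ∃ e ∈ E, ∃ c, d.act τ c = c ∧ (2 : ZMod q) • v = e + c := by
    intro v
    refine ⟨-(d.act τ v - v), E.neg_mem (sub_mem_moved _ _ _), d.act τ v + v, ?_, by rw [two_smul]; abel⟩
    rw [map_add, ← Module.End.mul_apply, ← map_mul, hττ, map_one, Module.End.one_apply, add_comm]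
  have hndE : ∀ e ∈ E, (∀ e' ∈ E, d.form e' e = 0) → e = 0 := by
    intro e he h
    refine d.form_nondeg e fun u => ?_
    obtain ⟨e', he', c, hc, huc⟩ := hsplit u
    have h0 : d.form ((2 : ZMod q) • u) e = 0 := by
      rw [huc, map_add, LinearMap.add_apply, h e' he', alt_swap d.form_alt, hperpC e he c hc]
      simp
    rw [map_smul, LinearMap.smul_apply, smul_eq_mul] at h0
    exact (mul_eq_zero.1 h0).resolve_left h2
  set BE : E →ₗ[ZMod q] E →ₗ[ZMod q] ZMod q := d.form.compl₁₂ E.subtype E.subtype with hBE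
  have hBEalt : ∀ v, BE v v = 0 := fun v => d.form_alt _
  have hBEnd : ∀ v, (∀ u, BE u v = 0) → v = 0 := fun v h =>
    Subtype.ext (hndE v.1 v.2 fun e' he' => h ⟨e', he'⟩)
  have hyτ : Commute (d.act τ) (d.act y) := (((Commute.self_pow y _).symm).map d.act)
  have hyE : ∀ e ∈ E, d.act y e ∈ E := by
    rintro _ ⟨w, rfl⟩
    refine ⟨d.act y w, ?_⟩
    simp only [LinearMap.sub_apply, Module.End.one_apply, map_sub]
    rw [← Module.End.mul_apply, hyτ.eq, Module.End.mul_apply]
  set yE : Module.End (ZMod q) E := (d.act y).restrict hyE with hyEdef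
  have hyEpow : ∀ (i : ℕ) (e : E), ((yE ^ i) e : d.bar) = d.act (y ^ i) e := by
    intro i
    induction i with
    | zero => intro e; simp
    | succ i ih => intro e; rw [pow_succ', Module.End.mul_apply, pow_succ', map_mul, Module.End.mul_apply, ← ih]; rfl
  haveI : Nontrivial E := by
    rw [Submodule.nontrivial_iff_ne_bot]
    intro h
    refine hτ (LinearMap.ext fun v => ?_)
    have := sub_mem_moved d.act τ v
    rw [← hE, h, Submodule.mem_bot, sub_eq_zero] at this
    exact this
  obtain ⟨f, hf1, hfd, hfdiv⟩ := exists_dvd_pow hBEalt hBEnd hq2 (g := yE) hn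
    (LinearMap.ext fun e => Subtype.ext (by rw [hyEpow, hy, map_one]; rfl))
    (LinearMap.ext fun e => Subtype.ext (by rw [hyEpow]; exact hneg _ e.2))
    (fun u v => hσ.iso y u.1 v.1)
  obtain ⟨A0, hA0, hdimE⟩ := exists_lagrangian hBEalt hBEnd
  set A := A0.map E.subtype with hA
  have hAE : A ≤ E := Submodule.map_subtype_le _ _
  have hAiso : A ≤ orth d.form A := by
    rintro _ ⟨x, hx, rfl⟩ _ ⟨z, hz, rfl⟩; exact hA0 hx z hz
  have hdA : finrank (ZMod q) ↥A = finrank (ZMod q) ↥A0 := Submodule.finrank_map_subtype_eq _ _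
  set D := ρ y - 1 with hD
  set h := 2 ^ (n - 1) with hh
  have hDh : D ^ h = ρ τ - 1 := by
    haveI : CharP (Module.End F V) 2 :=
      charP_of_injective_algebraMap (algebraMap F (Module.End F V)).injective 2
    haveI : Fact (Nat.Prime 2) := ⟨Nat.prime_two⟩
    rw [hD, hh, sub_pow_char_pow_of_commute _ _ (Commute.one_right _), one_pow, ← map_pow]
  have hh1 : 1 ≤ h := Nat.one_le_two_pow
  have hDnil : D ^ (2 * h - 1) = 0 := by rw [hh, Nat.two_mul, ← h2n]; exact hexc
  have hpair : ∀ (A' : Submodule (ZMod q) d.bar) (a : d.bar), A' ≤ E → a ∈ E → a ∉ A' →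
      ∃ b, d.form a b = 1 ∧ ∀ x ∈ A', d.form x b = 0 := by
    intro A' a hA' ha haA'
    obtain ⟨b, hb1, hb2⟩ := exists_pairing hBEnd (A := A'.comap E.subtype) (a := ⟨a, ha⟩) haA'
    exact ⟨b.1, hb1, fun x hx => hb2 ⟨x, hA' hx⟩ hx⟩
  have hfix := pow_mul_finrank_fixA_le hZ hττ hpair _ A hAE hAiso hdA
  have hβC : hdim D h ≤ finrank F ↥(fixA d ρ τ A) :=
    hdim_le_of_ker_le _ (by rw [hDh]; exact ker_le_fixA_sup hZ hq2 hAiso)
  have hβpos := hdim_pos hh1 hDnil
  have hVβ := finrank_le_mul_hdim hh1 hDnil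
  set dd := finrank (ZMod q) ↥A0 with hdd
  have hqd : q ^ dd ≤ 2 * h - 1 := by
    have : q ^ dd * hdim D h ≤ (2 * h - 1) * hdim D h :=
      le_trans (le_trans (Nat.mul_le_mul_left _ hβC) hfix) hVβ
    exact Nat.le_of_mul_le_mul_right this hβpos
  have hq3 : 3 ≤ q := by
    have := (Fact.out : q.Prime).two_le
    omega
  have hqodd : Odd q := (Fact.out : q.Prime).odd_of_ne_two hq2
  have h2h : 2 * h = 2 ^ n := by rw [hh, Nat.two_mul, ← h2n]
  have hle2 : 2 ^ n ≤ (q + 1) * f := by
    rcases hfdiv with hdv | hdv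
    · exact two_pow_le_sub hqodd (by omega) f hf1 hdv
    · exact two_pow_le_add hqodd (by omega) hf1 hdv
  have hdd1 : dd = 1 := by
    by_contra hne
    have h3 := mul_le_pow hq3 dd (by omega)
    have h4 : (q + 1) * f ≤ (q + 1) * dd := Nat.mul_le_mul_left _ (by omega)
    omega
  rw [hdd1, pow_one] at hqd hfix
  have hf : f = 1 := by omega
  subst hf
  rw [pow_one] at hfdiv
  have hqn : q + 1 = 2 ^ n := by
    rcases hfdiv with hdv | hdv
    · have := Nat.le_of_dvd (by omega) hdv; omega
    · have := Nat.le_of_dvd (by omega) hdv; omega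
  have hn2 : 2 ≤ n := by
    by_contra hlt
    have : n = 1 := by omega
    subst this
    simp at hqn
    omega
  have hm : IsReflPrime q n := ⟨hn2, hqn⟩
  refine ⟨hm, ?_⟩
  have heq : finrank F V = (2 * h - 1) * hdim D h := by
    refine le_antisymm hVβ ?_
    have h5 : q * hdim D h ≤ finrank F V := le_trans (Nat.mul_le_mul_left _ hβC) hfix
    rwa [show 2 * h - 1 = q by omega]
  -- `y` is trivial on the fixed points of `τ`
  have hfixC : ∀ c : d.bar, d.act τ c = c → d.act y c = c := by
    have hprod : ∀ w : d.K, ∀ v, ρ τ (ρ ((w * d.cj τ w : d.K) : X) v) = ρ ((w * d.cj τ w : d.K) : X) (ρ τ v) := by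
      intro w v
      rw [rho_cj_apply, cj_mul, cj_apply_apply hττ]
      simp only [Subgroup.coe_mul, map_mul, Module.End.mul_apply]
      refine rho_commute hZ ?_ _
      rw [← d.act_cls]
      obtain ⟨e, he, c, hc, hec⟩ := hsplit (d.cls' w)
      have h0 : d.form (d.act τ ((2 : ZMod q) • d.cls' w)) ((2 : ZMod q) • d.cls' w) = 0 := by
        rw [hec, map_add (d.act τ), hneg e he, hc]
        simp only [map_add, map_neg, LinearMap.add_apply, LinearMap.neg_apply, d.form_alt,
          hperpC e he c hc, alt_swap d.form_alt c e]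
        ring
      simp only [map_smul, LinearMap.smul_apply, smul_eq_mul] at h0
      exact ((mul_eq_zero.1 ((mul_eq_zero.1 h0).resolve_left h2))).resolve_left h2
    intro c hc
    obtain ⟨m, rfl⟩ := d.exists_cls c
    by_contra hne
    set e' := d.act y (d.cls' m) - d.cls' m with he'
    have he'0 : e' ≠ 0 := sub_ne_zero.2 hne
    have he'C : d.act τ e' = e' := by
      rw [he', map_sub, ← Module.End.mul_apply, hyτ.eq, Module.End.mul_apply, hc]
    obtain ⟨u, hu⟩ : ∃ u, d.form u e' ≠ 0 := by
      by_contra hall; push Not at hall; exact he'0 (d.form_nondeg _ hall)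
    obtain ⟨l, rfl⟩ := d.exists_cls u
    set m' := m * d.cj τ m with hm'
    set l' := l * d.cj τ l with hl'
    have hm'cls : d.cls' m' = (2 : ZMod q) • d.cls' m := by
      rw [hm', d.cls_mul, ← d.act_cls, hc, two_smul]
    set k1 := d.cj y m' * m'⁻¹ with hk1
    have hk1cls : d.cls' k1 = (2 : ZMod q) • e' := by
      rw [hk1, d.cls_mul, d.cls_inv, ← d.act_cls, hm'cls, map_smul, he', smul_sub, sub_eq_add_neg]
    have hform : d.form (d.cls' k1) (d.cls' l') ≠ 0 := by
      rw [hk1cls, hl', d.cls_mul, ← d.act_cls, map_smul, LinearMap.smul_apply, map_add, smul_eq_mul]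
      have e1 : d.form e' (d.act τ (d.cls' l)) = d.form e' (d.cls' l) := by
        conv_rhs => rw [← hσ.iso τ e' (d.cls' l), he'C]
      rw [e1, ← two_mul, ← mul_assoc]
      refine mul_ne_zero (mul_ne_zero h2 h2) ?_
      rw [alt_swap d.form_alt]
      exact neg_ne_zero.2 hu
    -- everything happens on `ker D ^ h / range D ^ h`
    have hker : ∀ {v}, v ∈ ker (D ^ h) ↔ ρ τ v = v := fun {v} => by
      rw [hDh, LinearMap.mem_ker, LinearMap.sub_apply, Module.End.one_apply, sub_eq_zero]
    have hkerW : ∀ w : d.K, ∀ v ∈ ker (D ^ h), ρ ((w * d.cj τ w : d.K) : X) v ∈ ker (D ^ h) := fun w v hv =>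
      hker.2 (by rw [hprod, hker.1 hv])
    have hranW : ∀ w : d.K, ∀ v ∈ range (D ^ h), ρ ((w * d.cj τ w : d.K) : X) v ∈ range (D ^ h) := by
      rintro w _ ⟨x, rfl⟩
      refine ⟨ρ ((w * d.cj τ w : d.K) : X) x, ?_⟩
      rw [hDh]
      simp only [LinearMap.sub_apply, Module.End.one_apply, map_sub, hprod]
    have hyfix : ∀ v ∈ ker (D ^ h), ρ y v - v ∈ range (D ^ h) := fun v hv => by
      have := apply_mem_range_of_eq hh1 hDnil heq (LinearMap.mem_ker.1 hv)
      rwa [hD, LinearMap.sub_apply, Module.End.one_apply] at this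
    have hk1act : ∀ v ∈ ker (D ^ h), ρ (k1 : X) v - v ∈ range (D ^ h) := by
      intro v hv
      set x := ρ ((m' : X))⁻¹ (v) with hx
      have hvx : v = ρ (m' : X) x := by
        rw [hx, ← Module.End.mul_apply, ← map_mul, mul_inv_cancel, map_one, Module.End.one_apply]
      have hxk : x ∈ ker (D ^ h) := by
        refine hker.2 ?_
        have e := hker.1 hv
        rw [hvx, hm', hprod] at e
        exact rho_inj ρ _ e
      set z := ρ y⁻¹ x
      have hzk : z ∈ ker (D ^ h) := by
        refine hker.2 ?_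
        have hc' : Commute (ρ τ) (ρ y⁻¹) := (((Commute.self_pow y _).symm).inv_right).map ρ
        rw [← Module.End.mul_apply, hc'.eq, Module.End.mul_apply, hker.1 hxk]
      have hyz : ρ y z = x := by
        rw [← Module.End.mul_apply, ← map_mul, mul_inv_cancel, map_one, Module.End.one_apply]
      have e1 : ρ (k1 : X) v = ρ y (ρ (m' : X) z) := by
        have : (k1 : X) = y * (m' : X) * y⁻¹ * (m' : X)⁻¹ := rfl
        rw [this, map_mul, map_mul, map_mul, Module.End.mul_apply, Module.End.mul_apply, Module.End.mul_apply]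
      have h1 := hyfix _ (hkerW m _ hzk)
      have h2' := hranW m _ (hyfix z hzk)
      rw [hyz, map_sub] at h2'
      have := Submodule.sub_mem _ h1 h2'
      rw [e1, hvx]
      convert this using 1
      simp only [hm']; abel
    have hcne : d.cv k1 l' ≠ 1 := by
      rw [d.cv_eq]
      intro hc1
      have := d.prim.pow_inj (ZMod.val_lt _) (Fact.out : q.Prime).pos (hc1.trans (pow_zero _).symm)
      exact hform (by simpa using this)
    have hkerle : ker (D ^ h) ≤ range (D ^ h) := by
      intro v hv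
      have e := rho_comm hZ k1 l' v
      have a1 := hk1act _ (hkerW l v hv)
      have a2 := hranW l _ (hk1act v hv)
      rw [map_sub] at a2
      rw [← hl'] at a1 a2
      rw [e] at a1
      have a3 := Submodule.sub_mem _ a1 (Submodule.smul_mem _ (d.cv k1 l') a2)
      have a4 : (d.cv k1 l' - 1) • ρ (l' : X) v ∈ range (D ^ h) := by
        convert a3 using 1
        rw [sub_smul, one_smul, smul_sub]; abel
      rw [Submodule.smul_mem_iff _ (sub_ne_zero.2 hcne)] at a4
      obtain ⟨x, hx⟩ := a4
      refine ⟨ρ ((l' : X))⁻¹ x, ?_⟩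
      have hcommD : ρ τ (ρ ((l' : X))⁻¹ x) = ρ ((l' : X))⁻¹ (ρ τ x) := by
        have := hprod l (ρ ((l' : X))⁻¹ x)
        rw [← hl'] at this
        rw [rho_apply_inv] at this
        refine rho_inj ρ (l' : X) ?_
        rw [← this, rho_apply_inv]
      rw [hDh] at hx ⊢
      rw [LinearMap.sub_apply, Module.End.one_apply] at hx ⊢
      rw [hcommD, ← map_sub, hx, ← Module.End.mul_apply, ← map_mul, inv_mul_cancel, map_one,
        Module.End.one_apply]
    have hmono := Submodule.finrank_mono hkerle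
    unfold hdim at hβpos
    omega
  have hmovedle : moved d.act y ≤ E := by
    rw [moved_le_iff]
    intro v
    obtain ⟨e, he, c, hc, hvc⟩ := hsplit v
    have h1 : (2 : ZMod q) • (d.act y v - v) ∈ E := by
      rw [smul_sub, ← map_smul, hvc, map_add, hfixC c hc]
      simpa using E.sub_mem (hyE e he) he
    exact (Submodule.smul_mem_iff _ h2).1 h1
  have hEy : moved d.act y = E := le_antisymm hmovedle (moved_pow_le _ _ _)
  refine ⟨?_, ?_⟩
  · rw [hEy]; omega
  · intro v hv
    exact hneg v (hEy ▸ hv)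

end Cfsg.Agent.Gross
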