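import Cfsg.Agent.Gross.Component
import Mathlib.LinearAlgebra.Eigenspace.Triangularizable
import Mathlib.RingTheory.RootsOfUnity.AlgebraicallyClosed

/-!
# Eigenspaces of a normal abelian subgroup
-/

set_option autoImplicit false
set_option linter.unusedSectionVars false
set_option linter.style.haveILetI false

namespace Cfsg.Agent.Gross

open scoped commutatorElement
open Module LinearMap Subgroup

variable {X : Type*} [Group X] [Finite X] {F : Type*} [Field F] {V : Type*} [AddCommGroup V]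
  [Module F V] (ρ : X →* Module.End F V) (Z : Subgroup X)

/-- The common eigenspace of a character. -/
def eig (χ : Z →* F) : Submodule F V := ⨅ z : Z, Module.End.eigenspace (ρ (z : X)) (χ z)

variable {ρ Z}

theorem mem_eig {χ : Z →* F} {v : V} : v ∈ eig ρ Z χ ↔ ∀ z : Z, ρ (z : X) v = χ z • v := by
  simp only [eig, Submodule.mem_iInf, Module.End.mem_eigenspace_iff]

/-- Two elements conjugate by `g` have the same value under `χ`. -/
def FixedBy (χ : Z →* F) (g : X) : Prop :=
  ∀ z z' : Z, (z' : X) = g * z * g⁻¹ → χ z' = χ z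

/-- The stabilizer of a character. -/
def charStab (χ : Z →* F) [hZ : Z.Normal] : Subgroup X where
  carrier := {g | FixedBy χ g}
  one_mem' := fun z z' h => by
    have : z' = z := Subtype.ext (by simpa using h)
    rw [this]
  mul_mem' {a b} ha hb := fun z z' h => by
    have h1 := hb z ⟨b * z * b⁻¹, hZ.conj_mem _ z.2 b⟩ rfl
    have h2 := ha ⟨b * z * b⁻¹, hZ.conj_mem _ z.2 b⟩ z' (by rw [h]; group)
    rw [h2, h1]
  inv_mem' {a} ha := fun z z' h => (ha z' z (by rw [h]; group)).symm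

theorem mem_charStab {χ : Z →* F} [Z.Normal] {g : X} : g ∈ charStab χ ↔ FixedBy χ g := Iff.rfl

/-- The translate of a character. -/
def translate [hZ : Z.Normal] (χ : Z →* F) (g : X) : Z →* F :=
  χ.comp
    { toFun := fun z => ⟨g⁻¹ * z * g, by simpa using hZ.conj_mem _ z.2 g⁻¹⟩
      map_one' := Subtype.ext (show g⁻¹ * ((1 : Z) : X) * g = 1 by simp)
      map_mul' := fun a b => Subtype.ext (show g⁻¹ * ((a : X) * b) * g = g⁻¹ * a * g * (g⁻¹ * b * g) by group) }

theorem mem_charStab_of_translate [Z.Normal] {χ : Z →* F} {g : X} (h : translate χ g = χ) :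
    g ∈ charStab χ := by
  intro z z' hz
  rw [← DFunLike.congr_fun h z']
  show χ _ = χ z
  exact congrArg χ (Subtype.ext (by show g⁻¹ * (z' : X) * g = z; rw [hz]; group))

theorem apply_mem_eig_translate [Z.Normal] {χ : Z →* F} {g : X} {v : V} (hv : v ∈ eig ρ Z χ) :
    ρ g v ∈ eig ρ Z (translate χ g) := by
  rw [mem_eig] at hv ⊢
  intro z
  have h := hv ⟨g⁻¹ * z * g, by simpa using (inferInstance : Z.Normal).conj_mem _ z.2 g⁻¹⟩
  have e : (z : X) * g = g * (g⁻¹ * z * g) := by group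
  rw [← Module.End.mul_apply, ← map_mul, e, map_mul, Module.End.mul_apply]
  show ρ g (ρ _ v) = χ _ • ρ g v
  rw [h, map_smul]
  rfl

theorem apply_mem_eig [Z.Normal] {χ : Z →* F} {g : X} (hg : g ∈ charStab χ) {v : V}
    (hv : v ∈ eig ρ Z χ) : ρ g v ∈ eig ρ Z χ := by
  have h := apply_mem_eig_translate (g := g) hv
  have e : translate χ g = χ := by
    refine MonoidHom.ext fun z => ?_
    exact ((mem_charStab.1 hg) ⟨g⁻¹ * z * g, by simpa using (inferInstance : Z.Normal).conj_mem _ z.2 g⁻¹⟩ z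
      (by show (z : X) = g * (g⁻¹ * z * g) * g⁻¹; group)).symm
  rwa [e] at h

/-- Eigenspaces of other characters do not contribute. -/
theorem eq_zero_of_sum {ι : Type*} {χ : ι → (Z →* F)} (s : Finset ι) :
    ∀ (v : ι → V) (i₀ : ι), i₀ ∈ s → (∀ i ∈ s, v i ∈ eig ρ Z (χ i)) →
      (∀ i ∈ s, i ≠ i₀ → χ i ≠ χ i₀) → ∑ i ∈ s, v i = 0 → v i₀ = 0 := by
  classical
  induction s using Finset.strongInductionOn with
  | _ s ih =>
    intro v i₀ hi₀ hv hne hsum
    by_cases h : s = {i₀}
    · subst h; simpa using hsum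
    obtain ⟨i₁, hi₁, hne1⟩ : ∃ i ∈ s, i ≠ i₀ := by
      by_contra hall; push Not at hall
      exact h (Finset.eq_singleton_iff_unique_mem.2 ⟨hi₀, hall⟩)
    obtain ⟨z, hz⟩ : ∃ z, χ i₁ z ≠ χ i₀ z := by
      by_contra hall; push Not at hall
      exact hne i₁ hi₁ hne1 (MonoidHom.ext hall)
    have hsum' : ∑ i ∈ s, (χ i z - χ i₁ z) • v i = 0 := by
      have := congrArg (fun x => ρ (z : X) x - χ i₁ z • x) hsum
      simp only [map_zero, smul_zero, sub_zero, map_sum, Finset.smul_sum, ← Finset.sum_sub_distrib] at this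
      rw [← this]
      exact Finset.sum_congr rfl fun i hi => by rw [mem_eig.1 (hv i hi) z, sub_smul]
    rw [← Finset.add_sum_erase _ _ hi₁, sub_self, zero_smul, zero_add] at hsum'
    have h0 := ih (s.erase i₁) (Finset.erase_ssubset hi₁) (fun i => (χ i z - χ i₁ z) • v i) i₀
      (Finset.mem_erase.2 ⟨hne1.symm, hi₀⟩)
      (fun i hi => Submodule.smul_mem _ _ (hv i (Finset.mem_of_mem_erase hi)))
      (fun i hi => hne i (Finset.mem_of_mem_erase hi)) hsum'
    exact (smul_eq_zero.1 h0).resolve_left (sub_ne_zero.2 (Ne.symm hz))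

/-- The period of a character under a 2-element, and the element on the component. -/
theorem exists_period [Z.Normal] {χ : Z →* F} (hχ : eig ρ Z χ ≠ ⊥) {x : X} {e : ℕ}
    (hx : x ^ 2 ^ e = 1) (hexc : ∀ v, (∑ i ∈ Finset.range (2 ^ e), (ρ x) ^ i) v = 0) :
    ∃ j, j < e ∧ x ^ 2 ^ j ∈ charStab χ ∧
      ∀ v ∈ eig ρ Z χ, (∑ b ∈ Finset.range (2 ^ (e - j)), (ρ (x ^ 2 ^ j)) ^ b) v = 0 := by
  classical
  have hex : ∃ j, x ^ 2 ^ j ∈ charStab χ := ⟨e, by rw [hx]; exact one_mem _⟩
  set j := Nat.find hex with hj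
  have hjy : x ^ 2 ^ j ∈ charStab χ := Nat.find_spec hex
  have hje : j ≤ e := Nat.find_le (by rw [hx]; exact one_mem _)
  have hdist : ∀ a, 0 < a → a < 2 ^ j → translate χ (x ^ a) ≠ χ := by
    intro a ha0 ha h
    have hmem := mem_charStab_of_translate h
    obtain ⟨i, hi, hgcd⟩ := (Nat.dvd_prime_pow Nat.prime_two).1 (Nat.gcd_dvd_right a (2 ^ j))
    have hlt : Nat.gcd a (2 ^ j) < 2 ^ j := lt_of_le_of_lt (Nat.gcd_le_left _ ha0) ha
    obtain ⟨c, -, hc⟩ := Nat.exists_mul_mod_eq_gcd hlt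
    have h1 : x ^ 2 ^ i ∈ charStab χ := by
      have h2 := pow_mem hmem c
      rw [← pow_mul, ← Nat.div_add_mod (a * c) (2 ^ j), hc, hgcd, pow_add, pow_mul] at h2
      exact ((charStab χ).mul_mem_cancel_left (pow_mem hjy _)).1 h2
    have := Nat.find_le (h := hex) h1
    rw [← hj] at this
    have h3 : 2 ^ j ≤ 2 ^ i := Nat.pow_le_pow_right (by norm_num) this
    omega
  set y := x ^ 2 ^ j with hy
  have hkey : ∀ v ∈ eig ρ Z χ, (∑ b ∈ Finset.range (2 ^ (e - j)), (ρ y) ^ b) v = 0 := by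
    intro v hv
    set w := (∑ b ∈ Finset.range (2 ^ (e - j)), (ρ y) ^ b) v with hw
    have hwm : w ∈ eig ρ Z χ := by
      rw [hw, LinearMap.sum_apply]
      refine Submodule.sum_mem _ fun b _ => ?_
      rw [← map_pow]
      exact apply_mem_eig (pow_mem hjy b) hv
    have hsum : ∑ a ∈ Finset.range (2 ^ j), ρ (x ^ a) w = 0 := by
      rw [← hexc v, show 2 ^ e = 2 ^ (e - j) * 2 ^ j by rw [← pow_add, Nat.sub_add_cancel hje]]
      rw [LinearMap.sum_apply]
      simp only [hw, LinearMap.sum_apply, map_sum]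
      rw [Finset.sum_comm]
      generalize 2 ^ (e - j) = N
      induction N with
      | zero => simp
      | succ N ih =>
        rw [Finset.sum_range_succ, ih, Nat.succ_mul, Finset.sum_range_add]
        congr 1
        refine Finset.sum_congr rfl fun a _ => ?_
        rw [← map_pow, ← map_pow, ← Module.End.mul_apply, ← map_mul, hy, ← pow_mul, ← pow_add,
          mul_comm (2 ^ j) N, add_comm a]
    have h := eq_zero_of_sum (ρ := ρ) (χ := fun a => translate χ (x ^ a)) (Finset.range (2 ^ j))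
      (fun a => ρ (x ^ a) w) 0 (Finset.mem_range.2 (Nat.two_pow_pos j))
      (fun a _ => apply_mem_eig_translate hwm)
      (fun a ha ha0 => by
        have : translate χ (x ^ 0) = χ := MonoidHom.ext fun z =>
          congrArg χ (Subtype.ext (show (x ^ 0)⁻¹ * (z : X) * x ^ 0 = z by simp))
        rw [this]
        exact hdist a (Nat.pos_of_ne_zero ha0) (Finset.mem_range.1 ha)) hsum
    simpa using h
  refine ⟨j, lt_of_le_of_ne hje ?_, hjy, hkey⟩
  intro hje'
  refine hχ (eq_bot_iff.2 fun v hv => ?_)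
  have := hkey v hv
  simpa [hje', Nat.sub_self] using this

/-- Commuting operators of finite odd order have common eigenvectors, with prescribed nontrivial value. -/
theorem exists_char_ne_one [IsAlgClosed F] [FiniteDimensional F V] {q : ℕ} (hqF : (q : F) ≠ 0)
    (hexp : ∀ z ∈ Z, z ^ q = 1) (hcomm : ∀ a ∈ Z, ∀ b ∈ Z, Commute a b) {z : Z}
    (hz : ρ (z : X) ≠ 1) : ∃ χ : Z →* F, eig ρ Z χ ≠ ⊥ ∧ χ z ≠ 1 := by
  classical
  haveI : Fintype Z := Fintype.ofFinite _
  have hc : ∀ (a b : Z) (v : V), ρ (a : X) (ρ (b : X) v) = ρ (b : X) (ρ (a : X) v) := fun a b v => by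
    rw [← Module.End.mul_apply, ← map_mul, (hcomm _ a.2 _ b.2).eq, map_mul, Module.End.mul_apply]
  -- a common eigenspace inside an invariant subspace
  have key : ∀ (s : Finset Z) (U : Submodule F V), U ≠ ⊥ → (∀ (a : Z), ∀ u ∈ U, ρ (a : X) u ∈ U) →
      ∃ W : Submodule F V, W ≤ U ∧ W ≠ ⊥ ∧ (∀ (a : Z), ∀ u ∈ W, ρ (a : X) u ∈ W) ∧
        ∀ a ∈ s, ∃ c : F, ∀ u ∈ W, ρ (a : X) u = c • u := by
    intro s
    induction s using Finset.induction_on with
    | empty => exact fun U hU hinv => ⟨U, le_rfl, hU, hinv, by simp⟩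
    | @insert a s has ih =>
      intro U hU hinv
      obtain ⟨W, hWU, hW, hWinv, hWs⟩ := ih U hU hinv
      haveI : Nontrivial W := Submodule.nontrivial_iff_ne_bot.2 hW
      obtain ⟨c, hc'⟩ := Module.End.exists_eigenvalue ((ρ (a : X)).restrict (hWinv a))
      obtain ⟨u, hu, hu0⟩ := hc'.exists_hasEigenvector
      refine ⟨W ⊓ Module.End.eigenspace (ρ (a : X)) c, inf_le_left.trans hWU, ?_, ?_, ?_⟩
      · intro h
        have : (u : V) ∈ W ⊓ Module.End.eigenspace (ρ (a : X)) c :=
          ⟨u.2, Module.End.mem_eigenspace_iff.2 (congrArg Subtype.val (Module.End.mem_eigenspace_iff.1 hu))⟩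
        rw [h, Submodule.mem_bot] at this
        exact hu0 (Subtype.ext this)
      · rintro b v ⟨h1, h2⟩
        refine ⟨hWinv b v h1, Module.End.mem_eigenspace_iff.2 ?_⟩
        rw [hc a b, Module.End.mem_eigenspace_iff.1 h2, map_smul]
      · intro b hb
        rw [Finset.mem_insert] at hb
        rcases hb with rfl | hb
        · exact ⟨c, fun v hv => Module.End.mem_eigenspace_iff.1 hv.2⟩
        · obtain ⟨c', hc''⟩ := hWs b hb
          exact ⟨c', fun v hv => hc'' v hv.1⟩
  set U := range (ρ (z : X) - 1) with hU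
  have hU0 : U ≠ ⊥ := fun h => hz (LinearMap.ext fun v => by
    have h1 : (ρ (z : X) - 1) v ∈ U := ⟨v, rfl⟩
    rw [h, Submodule.mem_bot, LinearMap.sub_apply, Module.End.one_apply, sub_eq_zero] at h1
    exact h1)
  have hUinv : ∀ (a : Z), ∀ u ∈ U, ρ (a : X) u ∈ U := by
    rintro a _ ⟨v, rfl⟩
    exact ⟨ρ (a : X) v, by simp only [LinearMap.sub_apply, Module.End.one_apply, map_sub, hc a z]⟩
  obtain ⟨W, hWU, hW, -, hWs⟩ := key Finset.univ U hU0 hUinv
  choose χ hχ using fun a => hWs a (Finset.mem_univ a)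
  obtain ⟨u, hu, hu0⟩ := Submodule.exists_mem_ne_zero_of_ne_bot hW
  have hone : χ 1 = 1 := by
    have := hχ 1 u hu
    rw [OneMemClass.coe_one, map_one, Module.End.one_apply] at this
    exact smul_left_injective F hu0 (by simpa using this.symm)
  have hmul : ∀ a b, χ (a * b) = χ a * χ b := fun a b => by
    have h1 := hχ (a * b) u hu
    rw [Subgroup.coe_mul, map_mul, Module.End.mul_apply, hχ b u hu, map_smul, hχ a u hu, smul_smul] at h1
    exact (smul_left_injective F hu0 h1).symm.trans (mul_comm _ _)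
  refine ⟨⟨⟨χ, hone⟩, hmul⟩, ?_, ?_⟩
  · intro h
    have : u ∈ eig ρ Z ⟨⟨χ, hone⟩, hmul⟩ := mem_eig.2 fun a => hχ a u hu
    rw [h, Submodule.mem_bot] at this
    exact hu0 this
  · intro h1
    have hfix := hχ z u hu
    rw [show χ z = 1 from h1, one_smul] at hfix
    obtain ⟨w, hw⟩ := hWU hu
    rw [LinearMap.sub_apply, Module.End.one_apply] at hw
    have hiter : ∀ i : ℕ, ((ρ (z : X)) ^ i) w = w + (i : F) • u := by
      intro i
      induction i with
      | zero => simp
      | succ i ih =>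
        rw [pow_succ', Module.End.mul_apply, ih, map_add, map_smul, hfix, Nat.cast_succ, add_smul, one_smul]
        rw [← hw]; abel
    have h2 := hiter q
    rw [← map_pow, hexp _ z.2, map_one, Module.End.one_apply, left_eq_add] at h2
    exact hu0 ((smul_eq_zero.1 h2).resolve_left hqF)

end Cfsg.Agent.Gross
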