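import Cfsg.Agent.Gross.Main

/-!
# Gross's bound on the 2-length
-/

set_option autoImplicit false
set_option linter.unusedSectionVars false
set_option linter.style.haveILetI false

namespace Cfsg.Agent.Gross

open scoped TensorProduct
open Cfsg

theorem baseChange_injective {K : Type*} [Field K] (F : Type*) [Field F] [Algebra K F] {M : Type*}
    [AddCommGroup M] [Module K M] :
    Function.Injective (Module.End.baseChangeHom K F M) := by
  intro f g h
  refine LinearMap.ext fun v => ?_
  have h1 : (f.baseChange F) ((1 : F) ⊗ₜ[K] v) = (g.baseChange F) ((1 : F) ⊗ₜ[K] v) :=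
    LinearMap.congr_fun h ((1 : F) ⊗ₜ[K] v)
  rw [LinearMap.baseChange_tmul, LinearMap.baseChange_tmul] at h1
  have hinj : Function.Injective (fun w : M => (1 : F) ⊗ₜ[K] w) := by
    intro a b hab
    have hr : Function.Injective ((Algebra.linearMap K F).rTensor M) :=
      Module.Flat.rTensor_preserves_injective_linearMap _ (algebraMap K F).injective
    have := hr (a₁ := (TensorProduct.lid K M).symm a) (a₂ := (TensorProduct.lid K M).symm b) (by
      simpa using hab)
    exact (TensorProduct.lid K M).symm.injective this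
  exact hinj h1

/-- For a solvable group with trivial cores the squares `x ^ 2 ^ (e - 1)` lie in the next layer. -/
theorem pow_mem_of_exponent {X : Type*} [Group X] [Finite X] [Group.IsSolvable X] {W : Subgroup X}
    [W.Normal] (hV : HH.IsModuleSubgroup 2 W) (hC : Subgroup.centralizer (W : Set X) ≤ W) {e : ℕ}
    (hexp : ∀ y : X, (∃ j, orderOf y = 2 ^ j) → y ^ 2 ^ e = 1)
    {G2 : Type*} [Group G2] [Finite G2] [Group.IsSolvable G2] (ψ : G2 →* X ⧸ W)
    (hψ : Function.Injective ψ) (hO : pCore 2 G2 = ⊥) {x : G2} (hx : ∃ i, orderOf x = 2 ^ i) :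
    x ^ 2 ^ (e - 1) ∈ pPrimePCore 2 G2 ∧ (e = 1 → x = 1) := by
  haveI := Fact.mk Nat.prime_two
  haveI : Fact (Nat.Prime 2) := Fact.mk Nat.prime_two
  obtain ⟨ρ, hρ⟩ := HH.exists_conjRep hV
  haveI : Module.Finite (ZMod 2) (HH.Mod hV) := Module.Finite.of_finite
  let F := AlgebraicClosure (ZMod 2)
  haveI : CharP F 2 := charP_of_injective_algebraMap (algebraMap (ZMod 2) F).injective 2
  let ρF : G2 →* Module.End F (F ⊗[ZMod 2] HH.Mod hV) :=
    ((Module.End.baseChangeHom (ZMod 2) F (HH.Mod hV)).toMonoidHom.comp ρ).comp ψ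
  have hinj : Function.Injective ρF := fun a b h =>
    hψ (HH.conjRep_injective hC hρ (baseChange_injective F h))
  have hexpG : ∀ g : G2, (∃ i, orderOf g = 2 ^ i) →
      g ^ 2 ^ e = 1 ∧ ∀ v, (∑ i ∈ Finset.range (2 ^ e), (ρF g) ^ i) v = 0 := by
    rintro g ⟨i, hi⟩
    obtain ⟨z, hz, hzj⟩ := Element.exists_pElement_preimage Nat.prime_two (QuotientGroup.mk' W)
      (QuotientGroup.mk'_surjective W) (show orderOf (ψ g) = 2 ^ i by rw [orderOf_injective ψ hψ, hi])
    have hze : z ^ 2 ^ e = 1 := hexp z hzj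
    refine ⟨hψ (by rw [map_pow, map_one, ← hz, ← map_pow, hze, map_one]), ?_⟩
    have hbase : ∑ k ∈ Finset.range (2 ^ e), (ρ (ψ g)) ^ k = 0 := by
      refine LinearMap.ext fun v => ?_
      by_contra hne
      rw [LinearMap.zero_apply] at hne
      obtain ⟨y, hy, hy1, -⟩ := HH.exists_pow_ne_one hV (x := z) (m := e) (by rw [hze]; exact one_mem _)
        (v := v.val) v.val_mem (fun h1 => hne (by
          rw [LinearMap.sum_apply]
          apply HH.Mod.ext
          rw [HH.Mod.val_sum, HH.Mod.val_zero]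
          refine Eq.trans ?_ h1
          congr 1
          refine List.map_congr_left fun k _ => ?_
          rw [← hz, QuotientGroup.mk'_apply, ← map_pow, ← QuotientGroup.mk_pow, hρ]))
      exact hy1 (hexp y hy)
    intro v
    have h2 := congrArg (Module.End.baseChangeHom (ZMod 2) F (HH.Mod hV)) hbase
    rw [map_sum, map_zero] at h2
    simp only [map_pow] at h2
    exact LinearMap.congr_fun h2 v
  refine ⟨pow_mem_pPrimePCore_of_exceptional hO hinj hexpG hx, ?_⟩
  rintro rfl
  obtain ⟨-, h2⟩ := hexpG x hx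
  refine hinj (LinearMap.ext fun v => ?_)
  have := h2 v
  rw [show 2 ^ 1 = 1 + 1 from rfl, Finset.sum_range_succ, Finset.sum_range_one, pow_zero, pow_one,
    LinearMap.add_apply, Module.End.one_apply] at this
  rw [map_one, Module.End.one_apply]
  have h3 : ρF x v = -v := eq_neg_of_add_eq_zero_right this
  rw [h3, ← neg_one_smul F v, CharTwo.neg_eq, one_smul]

/-- **Gross**: a solvable group with 2-elements of order at most `2 ^ e` has 2-length at most `2 e - 1`. -/
theorem pLengthLE_two_mul_sub_one : ∀ (e : ℕ) (G : Type*) [Group G] [Finite G], Group.IsSolvable G →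
    (∀ x : G, (∃ j, orderOf x = 2 ^ j) → x ^ 2 ^ e = 1) → PLengthLE 2 (2 * e - 1) G := by
  haveI := Fact.mk Nat.prime_two
  have hp := Nat.prime_two
  intro e
  induction e with
  | zero =>
    intro G _ _ _ hexp
    refine PLength.pLengthLE_zero_of_coprime ((Nat.Prime.coprime_iff_not_dvd hp).2 (fun h => ?_)).symm
    obtain ⟨x, hx⟩ := exists_prime_orderOf_dvd_card' 2 h
    have := hexp x ⟨1, by rw [hx, pow_one]⟩
    rw [pow_zero, pow_one] at this
    rw [this, orderOf_one] at hx
    omega
  | succ e ih =>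
    intro G _ _ hG hexp
    haveI := hG
    set N := pPrimeCore 2 G with hN
    have hsolQ : ∀ {H : Type _} [Group H], Group.IsSolvable H → ∀ (M : Subgroup H) [M.Normal],
        Group.IsSolvable (H ⧸ M) := fun {H} _ h M _ =>
      haveI := h; Group.isSolvable_of_surjective (QuotientGroup.mk'_surjective M)
    have hG' := hsolQ hG N
    have hexp' : ∀ x : G ⧸ N, (∃ j, orderOf x = 2 ^ j) → x ^ 2 ^ (e + 1) = 1 := by
      rintro x ⟨j, hj⟩
      obtain ⟨y, hy, hyj⟩ := Element.exists_pElement_preimage hp (QuotientGroup.mk' N) (QuotientGroup.mk'_surjective N) hj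
      rw [← hy, ← map_pow, hexp y hyj, map_one]
    obtain ⟨F, hFn, hFP, hVexp, hVcomm, hC, hcore⟩ := S3788.exists_reduction
      (PSolv.isPSolvable_of_isSolvable hG') (PSolv.pPrimeCore_quotient_eq_bot 2 G)
    set P := pCore 2 (G ⧸ N) with hP
    set π := QuotientGroup.mk' F with hπ
    have hπs : Function.Surjective π := QuotientGroup.mk'_surjective F
    set V := P.map π with hV
    haveI hPn : P.Normal := by haveI := PSolv.pCore_characteristic 2 (G ⧸ N); infer_instance
    haveI : V.Normal := hPn.map π hπs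
    have hMod : HH.IsModuleSubgroup 2 V :=
      ⟨⟨⟨fun a b => Subtype.ext (hVcomm a a.2 b b.2)⟩⟩, hVexp⟩
    have hexpX : ∀ y : (G ⧸ N) ⧸ F, (∃ j, orderOf y = 2 ^ j) → y ^ 2 ^ (e + 1) = 1 := by
      rintro y ⟨j, hj⟩
      obtain ⟨z, hz, hzj⟩ := Element.exists_pElement_preimage hp π hπs hj
      rw [← hz, ← map_pow, hexp' z hzj, map_one]
    set φ := (QuotientGroup.mk' V).comp π with hφ
    have hker : φ.ker = P := by
      rw [hφ, ← MonoidHom.comap_ker, QuotientGroup.ker_mk', hV, Subgroup.comap_map_eq,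
        QuotientGroup.ker_mk', sup_eq_left]
      exact hFP
    set ψ : (G ⧸ N) ⧸ P →* ((G ⧸ N) ⧸ F) ⧸ V := QuotientGroup.lift P φ hker.ge with hψ
    have hψi : Function.Injective ψ := by
      rw [injective_iff_map_eq_one]
      intro a
      induction a using QuotientGroup.induction_on with
      | H a => intro ha; exact (QuotientGroup.eq_one_iff a).2 (hker.le ha)
    haveI := hsolQ hG' P
    haveI := hsolQ hG' F
    have hmain := fun x hx => pow_mem_of_exponent hMod hC hexpX ψ hψi
      (PSolv.pCore_quotient_eq_bot 2 (G ⧸ N)) (x := x) hx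
    have h1 : PLengthLE 2 (2 * e) ((G ⧸ N) ⧸ P) := by
      rcases Nat.eq_zero_or_pos e with rfl | he
      · refine PLength.pLengthLE_zero_of_coprime ((Nat.Prime.coprime_iff_not_dvd hp).2 (fun h => ?_)).symm
        obtain ⟨x, hx⟩ := exists_prime_orderOf_dvd_card' 2 h
        rw [(hmain x ⟨1, by rw [hx, pow_one]⟩).2 rfl, orderOf_one] at hx
        omega
      set O := pPrimeCore 2 ((G ⧸ N) ⧸ P) with hO
      set P3 := pCore 2 (((G ⧸ N) ⧸ P) ⧸ O) with hP3
      haveI : P3.Normal := by haveI := PSolv.pCore_characteristic 2 (((G ⧸ N) ⧸ P) ⧸ O); infer_instance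
      set f := (QuotientGroup.mk' P3).comp (QuotientGroup.mk' O) with hf
      have hfs : Function.Surjective f :=
        (QuotientGroup.mk'_surjective P3).comp (QuotientGroup.mk'_surjective O)
      have hexp3 : ∀ z : (((G ⧸ N) ⧸ P) ⧸ O) ⧸ P3, (∃ j, orderOf z = 2 ^ j) → z ^ 2 ^ e = 1 := by
        rintro z ⟨j, hj⟩
        obtain ⟨y, hy, hyj⟩ := Element.exists_pElement_preimage hp f hfs hj
        rw [← hy, ← map_pow]
        have hmem : y ^ 2 ^ (e + 1 - 1) ∈ pPrimePCore 2 ((G ⧸ N) ⧸ P) := (hmain y hyj).1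
        rw [Nat.add_sub_cancel] at hmem
        exact (QuotientGroup.eq_one_iff _).2 hmem
      haveI h3sol := hsolQ (hsolQ (hsolQ hG' P) O) P3
      have h3 := ih _ h3sol hexp3
      have h4 : PLengthLE 2 (1 + (2 * e - 1)) (((G ⧸ N) ⧸ P) ⧸ O) :=
        PLength.pLengthLE_add P3 (PLength.pLengthLE_of_isPGroup (PSolv.isPGroup_pCore 2 _)) h3
      have h5 := PLength.pLengthLE_add O (a := 0)
        (PLength.pLengthLE_zero_of_coprime (PSolv.coprime_card_pPrimeCore 2 _)) h4
      rwa [zero_add, show 1 + (2 * e - 1) = 2 * e by omega] at h5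
    have h2 : PLengthLE 2 (1 + 2 * e) (G ⧸ N) :=
      PLength.pLengthLE_add P (PLength.pLengthLE_of_isPGroup (PSolv.isPGroup_pCore 2 _)) h1
    have h6 := PLength.pLengthLE_add N (a := 0)
      (PLength.pLengthLE_zero_of_coprime (PSolv.coprime_card_pPrimeCore 2 G)) h2
    rwa [zero_add, show 1 + 2 * e = 2 * (e + 1) - 1 by omega] at h6

end Cfsg.Agent.Gross
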