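import Cfsg.Agent.Gross.Eigen
import Cfsg.Agent.Lib.HHExponent
import Cfsg.Agent.PGroup.Critical
import Cfsg.Agent.Cores.Fitting
import Mathlib.FieldTheory.IsAlgClosed.AlgebraicClosure
import Mathlib.RingTheory.Flat.Basic

/-!
# Gross: in a solvable linear group in characteristic 2 without free summands, `x ^ 2 ^ (e - 1) ∈ O_{2',2}`
-/

set_option autoImplicit false
set_option linter.unusedSectionVars false
set_option linter.style.haveILetI false

namespace Cfsg.Agent.Gross

open scoped commutatorElement TensorProduct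
open Module LinearMap Subgroup Cfsg

variable {X : Type*} [Group X] [Finite X] {F : Type*} [Field F] [CharP F 2] [IsAlgClosed F]
  {V : Type*} [AddCommGroup V] [Module F V] [FiniteDimensional F V] (ρ : X →* Module.End F V)

/-- The restriction to an eigenspace. -/
def eigRep {Z : Subgroup X} [Z.Normal] (χ : Z →* F) : charStab χ →* Module.End F (eig ρ Z χ) where
  toFun g := (ρ (g : X)).restrict fun _ hv => apply_mem_eig g.2 hv
  map_one' := LinearMap.ext fun v => Subtype.ext (by simp)
  map_mul' a b := LinearMap.ext fun v => Subtype.ext (by simp [Module.End.mul_apply])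

/-- The centre of a subgroup. -/
abbrev zc (K : Subgroup X) : Subgroup X := K ⊓ Subgroup.centralizer (K : Set X)

section data

variable {q : ℕ} [Fact q.Prime] {K : Subgroup X} [K.Normal]

theorem zc_normal (K : Subgroup X) [K.Normal] : (zc K).Normal :=
  haveI : (Subgroup.centralizer (K : Set X)).Normal := Subgroup.normal_centralizer
  inferInstance

theorem le_charStab (χ : zc K →* F) : haveI := zc_normal K; K ≤ charStab χ := by
  intro k hk z z' h
  have hc : k * z = z * k := Subgroup.mem_centralizer_iff.1 z.2.2 k hk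
  have : z' = z := Subtype.ext (by rw [h, hc, mul_inv_cancel_right])
  rw [this]

theorem coe_mem_zc {H : Subgroup X} (hKH : K ≤ H)
    {z : H} (hz : z ∈ K.subgroupOf H ⊓ Subgroup.centralizer (K.subgroupOf H : Set H)) :
    (z : X) ∈ zc K :=
  ⟨hz.1, Subgroup.mem_centralizer_iff.2 fun k hk =>
    congrArg Subtype.val (Subgroup.mem_centralizer_iff.1 hz.2 ⟨k, hKH hk⟩ hk)⟩

/-- The data on the stabilizer of a character. -/
def charData (hexp : ∀ k ∈ K, k ^ q = 1) (hcls : ∀ a ∈ K, ∀ b ∈ K, ∀ c ∈ K, Commute ⁅a, b⁆ c)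
    {ζ : F} (hζ : IsPrimitiveRoot ζ q) (χ : zc K →* F) :
    haveI := zc_normal K
    CharData (charStab χ) F q :=
  haveI := zc_normal K
  { K := K.subgroupOf (charStab χ)
    normal := Subgroup.normal_subgroupOf
    exp := fun k hk => Subtype.ext (by simpa using hexp _ hk)
    cls := fun a ha b hb c hc => Subtype.ext (hcls _ ha _ hb _ hc).eq
    χ := χ.comp
      { toFun := fun z => ⟨((z : charStab χ) : X), coe_mem_zc (le_charStab χ) z.2⟩
        map_one' := rfl
        map_mul' := fun _ _ => rfl }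
    inv := fun g z z' h => g.2 _ _ (congrArg Subtype.val h)
    ζ := ζ
    prim := hζ }

end data

/-- The image of the stabilizer in the isometry group. -/
noncomputable def imgHom {q : ℕ} [Fact q.Prime] {Y : Type*} [Group Y] (d : CharData Y F q) :
    Y →* (Module.End (ZMod q) d.bar)ˣ := d.act.toHomUnits

/-- The elements acting in `O_{2',2}` of the image. -/
noncomputable def goodSub {q : ℕ} [Fact q.Prime] {Y : Type*} [Group Y] (d : CharData Y F q) : Subgroup Y :=
  (pPrimePCore 2 (imgHom d).range).comap (imgHom d).rangeRestrict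

variable {ρ}

set_option maxHeartbeats 800000 in
/-- **Dichotomy at one component.** -/
theorem pow_mem_goodSub [Group.IsSolvable X] {q : ℕ} [Fact q.Prime] (hq2 : q ≠ 2) {K : Subgroup X}
    [K.Normal] (hexp : ∀ k ∈ K, k ^ q = 1) (hcls : ∀ a ∈ K, ∀ b ∈ K, ∀ c ∈ K, Commute ⁅a, b⁆ c)
    {ζ : F} (hζ : IsPrimitiveRoot ζ q) (χ : zc K →* F)
    (hχ : haveI := zc_normal K; eig ρ (zc K) χ ≠ ⊥) {x : X} {e : ℕ} (hx : x ^ 2 ^ e = 1)
    (hexc : ∀ v, (∑ i ∈ Finset.range (2 ^ e), (ρ x) ^ i) v = 0) :
    haveI := zc_normal K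
    x ^ 2 ^ (e - 1) ∈ (goodSub (charData hexp hcls hζ χ)).map (charStab χ).subtype := by
  haveI := zc_normal K
  haveI := Fact.mk Nat.prime_two
  obtain ⟨j, hje, hjy, hsum⟩ := exists_period hχ hx hexc
  set d := charData hexp hcls hζ χ
  set y : charStab χ := ⟨x ^ 2 ^ j, hjy⟩ with hy
  set n := e - j with hn
  have hn1 : 1 ≤ n := by omega
  have hτ : ((y ^ 2 ^ (n - 1) : charStab χ) : X) = x ^ 2 ^ (e - 1) := by
    show (x ^ 2 ^ j) ^ 2 ^ (n - 1) = _
    rw [← pow_mul, ← pow_add]; congr 2; omega
  refine ⟨y ^ 2 ^ (n - 1), ?_, hτ⟩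
  by_cases hact : d.act (y ^ 2 ^ (n - 1)) = 1
  · refine Subgroup.mem_comap.2 ?_
    have : (imgHom d).rangeRestrict (y ^ 2 ^ (n - 1)) = 1 := Subtype.ext (Units.ext hact)
    rw [this]
    exact one_mem _
  haveI : Nontrivial (eig ρ (zc K) χ) := Submodule.nontrivial_iff_ne_bot.2 hχ
  have hy2 : y ^ 2 ^ n = 1 := Subtype.ext (by
    show (x ^ 2 ^ j) ^ 2 ^ n = 1
    rw [← pow_mul, ← pow_add, show j + n = e by omega, hx])
  have hexc' : (eigRep ρ χ y - 1) ^ (2 ^ n - 1) = 0 := by
    have hpoly := congrArg (Polynomial.aeval (eigRep ρ χ y)) (HH.sub_one_pow_pred (F := F) 2 n)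
    simp only [map_pow, map_sub, Polynomial.aeval_X, map_one, map_sum] at hpoly
    rw [hpoly]
    refine LinearMap.ext fun v => Subtype.ext ?_
    rw [LinearMap.sum_apply, LinearMap.zero_apply, Submodule.coe_sum, ZeroMemClass.coe_zero]
    rw [← hsum v.1 v.2, LinearMap.sum_apply]
    refine Finset.sum_congr rfl fun b _ => ?_
    rw [← map_pow, ← map_pow]
    rfl
  obtain ⟨hm, hrefl⟩ := component_refl (d := d) (ρ := eigRep ρ χ)
    (fun z v => Subtype.ext (mem_eig.1 v.2 ⟨((z : charStab χ) : X), coe_mem_zc (le_charStab χ) z.2⟩))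
    hq2 hn1 hy2 hexc' hact
  set f := (imgHom d).rangeRestrict with hf
  haveI : Finite (charStab χ) := inferInstance
  haveI : Finite (imgHom d).range := Finite.of_surjective _ (imgHom d).rangeRestrict_surjective
  haveI : Group.IsSolvable (imgHom d).range :=
    Group.isSolvable_of_surjective (imgHom d).rangeRestrict_surjective
  set σ : (imgHom d).range →* Module.End (ZMod q) d.bar :=
    (Units.coeHom _).comp (imgHom d).range.subtype with hσdef
  have hσ : IsIsoRep σ d.form := by
    refine ⟨d.form_alt, d.form_nondeg, ?_⟩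
    rintro ⟨_, g, rfl⟩ u v
    exact d.isIsoRep.iso g u v
  have hinj : Function.Injective σ := fun a b h => Subtype.ext (Units.ext h)
  have hr : IsRefl σ n (f y) := by
    refine ⟨hrefl.dim, fun v hv => ?_⟩
    rw [← map_pow]
    exact hrefl.neg v hv
  have := pow_mem_pPrimePCore hm hσ hinj (y := f y) (a := n) (by rw [← map_pow, hy2, map_one]) hr
  rw [← map_pow] at this
  exact this

set_option maxHeartbeats 800000 in
/-- **Main theorem.** -/
theorem pow_mem_pPrimePCore_of_exceptional [Group.IsSolvable X] (hO : pCore 2 X = ⊥)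
    (hinj : Function.Injective ρ) {e : ℕ}
    (hall : ∀ x : X, (∃ i, orderOf x = 2 ^ i) →
      x ^ 2 ^ e = 1 ∧ ∀ v, (∑ i ∈ Finset.range (2 ^ e), (ρ x) ^ i) v = 0)
    {x : X} (hx : ∃ i, orderOf x = 2 ^ i) : x ^ 2 ^ (e - 1) ∈ pPrimePCore 2 X := by
  classical
  haveI := Fact.mk Nat.prime_two
  set τ := x ^ 2 ^ (e - 1) with hτ
  set N := normalClosure {τ} with hN
  -- the images of `N` in the isometry groups
  have hgood : ∀ (q : ℕ) (_ : Fact q.Prime) (hq2 : q ≠ 2) (K : Subgroup X) (_ : K.Normal)
      (hexp : ∀ k ∈ K, k ^ q = 1) (hcls : ∀ a ∈ K, ∀ b ∈ K, ∀ c ∈ K, Commute ⁅a, b⁆ c)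
      (ζ : F) (hζ : IsPrimitiveRoot ζ q) (χ : zc K →* F),
      (haveI := zc_normal K; eig ρ (zc K) χ ≠ ⊥) →
      N ≤ (haveI := zc_normal K; (goodSub (charData hexp hcls hζ χ)).map (charStab χ).subtype) := by
    intro q _ hq2 K _ hexp hcls ζ hζ χ hχ
    rw [hN, normalClosure, closure_le]
    intro z hz
    obtain ⟨_, rfl, hc⟩ := Group.mem_conjugatesOfSet_iff.1 hz
    obtain ⟨g, rfl⟩ := isConj_iff.1 hc
    have hord : ∃ i, orderOf (g * x * g⁻¹) = 2 ^ i := by
      obtain ⟨i, hi⟩ := hx
      exact ⟨i, by rw [← hi]; exact orderOf_injective (MulAut.conj g).toMonoidHom (MulAut.conj g).injective x⟩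
    obtain ⟨h1, h2⟩ := hall _ hord
    have := pow_mem_goodSub (ρ := ρ) hq2 hexp hcls hζ χ hχ h1 h2
    rwa [conj_pow] at this
  -- odd elements of `N` generate a subgroup of odd order
  set M := closure {z | z ∈ N ∧ (orderOf z).Coprime 2} with hM
  haveI hMn : M.Normal := by
    refine ⟨fun d hd g => ?_⟩
    have : M ≤ M.comap (MulAut.conj g).toMonoidHom := by
      refine (closure_le _).2 fun z hz => subset_closure ⟨normalClosure_normal.conj_mem _ hz.1 g, ?_⟩
      show (orderOf ((MulAut.conj g).toMonoidHom z)).Coprime 2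
      rw [orderOf_injective _ (MulAut.conj g).injective z]; exact hz.2
    exact this hd
  have hMN : M ≤ N := (closure_le _).2 fun z hz => hz.1
  -- a 2-element of `M` is trivial
  have hM1 : ∀ g ∈ M, (∃ i, orderOf g = 2 ^ i) → g = 1 := by
    rintro g hgM ⟨i, hi⟩
    have hcop : ∀ r : ℕ, r.Prime → r ≠ 2 → (orderOf g).Coprime r := fun r hr hr2 => by
      rw [hi]; exact ((Nat.coprime_primes Nat.prime_two hr).2 (Ne.symm hr2)).pow_left i
    have hF : fittingSubgroup X ≤ pPrimeCore 2 X := by
      rw [Cores.fittingSubgroup_eq_iSup_pCore]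
      refine iSup_le fun r => ?_
      haveI := Fact.mk r.2
      by_cases hr : (r : ℕ) = 2
      · rw [hr, hO]; exact bot_le
      · obtain ⟨k, hk⟩ := IsPGroup.iff_card.1 (PSolv.isPGroup_pCore (r : ℕ) X)
        haveI := PSolv.pCore_characteristic (r : ℕ) X
        exact PSolv.le_pPrimeCore inferInstance
          (hk ▸ ((Nat.coprime_primes r.2 Nat.prime_two).2 hr).pow_left k)
    have hgF : g ∈ Subgroup.centralizer (fittingSubgroup X : Set X) := by
      rw [Cores.fittingSubgroup_eq_iSup_pCore]
      suffices h : ∀ r : Nat.Primes, ∀ a ∈ pCore (r : ℕ) X, Commute g a by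
        refine Subgroup.mem_centralizer_iff.2 fun a ha => ?_
        have hle : (⨆ r : Nat.Primes, pCore (r : ℕ) X) ≤ Subgroup.centralizer {g} :=
          iSup_le fun r a ha => Subgroup.mem_centralizer_singleton_iff.2 (h r a ha).eq.symm
        exact Subgroup.mem_centralizer_singleton_iff.1 (hle ha)
      intro r
      haveI := Fact.mk r.2
      by_cases hr : (r : ℕ) = 2
      · intro a ha
        rw [hr, hO, mem_bot] at ha
        rw [ha]; exact Commute.one_right g
      set q := (r : ℕ) with hq
      set P := pCore q X with hP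
      haveI hPc : P.Characteristic := PSolv.pCore_characteristic q X
      obtain ⟨D, hDc, hDcl, hDexp, hDfaith⟩ :=
        PGroup.exists_characteristic_exponent_prime hr (PSolv.isPGroup_pCore q X)
      set K := D.map P.subtype with hK
      haveI hKn : K.Normal := PSolv.map_subtype_normal hDc
      have hexp : ∀ k ∈ K, k ^ q = 1 := by
        rintro _ ⟨k, hk, rfl⟩
        rw [← map_pow, hDexp k hk, map_one]
      have hcls : ∀ a ∈ K, ∀ b ∈ K, ∀ c ∈ K, Commute ⁅a, b⁆ c := by
        rintro _ ⟨a, ha, rfl⟩ _ ⟨b, hb, rfl⟩ _ ⟨c, hc, rfl⟩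
        have h := hDcl (Subgroup.commutator_mem_commutator (mem_top (⟨a, ha⟩ : D)) (mem_top (⟨b, hb⟩ : D)))
        have h2 := (congrArg Subtype.val (Subgroup.mem_center_iff.1 h ⟨c, hc⟩))
        have h3 : P.subtype (c * ⁅a, b⁆) = P.subtype (⁅a, b⁆ * c) := congrArg _ h2
        show ⁅P.subtype a, P.subtype b⁆ * P.subtype c = P.subtype c * ⁅P.subtype a, P.subtype b⁆
        rw [← map_commutatorElement, ← map_mul, ← map_mul]
        exact h3.symm
      haveI := zc_normal K
      have hqF : (q : F) ≠ 0 := by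
        rw [Ne, CharP.cast_eq_zero_iff F 2]
        exact fun h => hr ((Nat.prime_dvd_prime_iff_eq Nat.prime_two r.2).1 h).symm
      haveI : NeZero (q : F) := ⟨hqF⟩
      obtain ⟨ζ, hζ⟩ := HasEnoughRootsOfUnity.exists_primitiveRoot F q
      have hZexp : ∀ z ∈ zc K, z ^ q = 1 := fun z hz => hexp z hz.1
      have hZcomm : ∀ a ∈ zc K, ∀ b ∈ zc K, Commute a b := fun a ha b hb =>
        Subgroup.mem_centralizer_iff.1 hb.2 a ha.1
      have hsep : ∀ z : zc K, (∀ χ : zc K →* F, eig ρ (zc K) χ ≠ ⊥ → χ z = 1) → z = 1 := by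
        intro z hz
        by_contra hne
        obtain ⟨χ, h1, h2⟩ := exists_char_ne_one (ρ := ρ) hqF hZexp hZcomm (z := z) (fun h => hne
          (Subtype.ext (hinj (by rw [h, OneMemClass.coe_one, map_one]))))
        exact h2 (hz χ h1)
      have hfix : ∀ χ : zc K →* F, eig ρ (zc K) χ ≠ ⊥ →
          ∃ h : g ∈ charStab χ, (charData hexp hcls hζ χ).act ⟨g, h⟩ = 1 := by
        intro χ hχ
        obtain ⟨g', hg', hgg'⟩ := hgood q inferInstance hr K hKn hexp hcls ζ hζ χ hχ (hMN hgM)
        subst hgg'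
        refine ⟨g'.2, ?_⟩
        set d := charData hexp hcls hζ χ
        set f := (imgHom d).rangeRestrict
        haveI : Finite (imgHom d).range := Finite.of_surjective _ (imgHom d).rangeRestrict_surjective
        set O := pPrimeCore 2 (imgHom d).range
        have hodd : M.subgroupOf (charStab χ) ≤ O.comap f := by
          intro a ha
          have hle : M ≤ (O.comap f).map (charStab χ).subtype := by
            refine (closure_le _).2 fun z hz => ?_
            obtain ⟨z', hz', rfl⟩ := hgood q inferInstance hr K hKn hexp hcls ζ hζ χ hχ hz.1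
            refine ⟨z', ?_, rfl⟩
            have h1 : QuotientGroup.mk' O (f z') ∈ pCore 2 _ := hz'
            have h2 := LocalP.eq_one_of_mem_isPGroup (PSolv.isPGroup_pCore 2 _) h1
              (Nat.Coprime.coprime_dvd_left ((orderOf_map_dvd ((QuotientGroup.mk' O).comp f) z').trans
                (dvd_of_eq (orderOf_injective _ (charStab χ).subtype_injective z').symm)) hz.2)
            exact (QuotientGroup.eq_one_iff (f z')).1 h2
          obtain ⟨a', ha', haa⟩ := hle ha
          rwa [← Subtype.ext haa]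
        have h1 : f g' ∈ O := hodd hgM
        have h2 : f g' = 1 := by
          have hd : orderOf (f g') ∣ 2 ^ i := (orderOf_map_dvd f g').trans
            (dvd_of_eq (by rw [← hi]; exact (orderOf_injective _ (charStab χ).subtype_injective g').symm))
          obtain ⟨k, -, hk⟩ := (Nat.dvd_prime_pow Nat.prime_two).1 hd
          have h3 : (orderOf (f g')).Coprime 2 :=
            Element.coprime_orderOf_of_mem (PSolv.coprime_card_pPrimeCore 2 _) h1
          rw [← orderOf_eq_one_iff]
          exact Nat.eq_one_of_dvd_coprimes (h3.pow_right k) dvd_rfl (dvd_of_eq hk)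
        exact congrArg (fun u : (imgHom d).range => ((u : (Module.End (ZMod q) d.bar)ˣ) : Module.End (ZMod q) d.bar)) h2
      -- `g` centralises the centre
      have hgZ : ∀ z ∈ zc K, Commute g z := by
        intro z hz
        set z' : zc K := ⟨g * z * g⁻¹, (inferInstance : (zc K).Normal).conj_mem _ hz g⟩
        have h1 : z' * (⟨z, hz⟩ : zc K)⁻¹ = 1 := hsep _ fun χ hχ => by
          obtain ⟨hg, -⟩ := hfix χ hχ
          rw [map_mul, hg ⟨z, hz⟩ z' rfl, ← map_mul, mul_inv_cancel, map_one]
        exact mul_inv_eq_iff_eq_mul.1 (congrArg Subtype.val (mul_inv_eq_one.1 h1))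
      have hgK : ⁅K, zpowers g⁆ ≤ zc K := by
        rw [Subgroup.commutator_le]
        intro k hk a ha
        set C := (Subgroup.centralizer ((K.map (QuotientGroup.mk' (zc K))) : Set (X ⧸ zc K))).comap
          (QuotientGroup.mk' (zc K)) with hC
        have hgC : g ∈ C := by
          refine mem_comap.2 (Subgroup.mem_centralizer_iff.2 ?_)
          rintro _ ⟨k, hk, rfl⟩
          rw [← commutatorElement_eq_one_iff_mul_comm, ← map_commutatorElement]
          refine (QuotientGroup.eq_one_iff _).2 ?_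
          have hcK : g * k * g⁻¹ * k⁻¹ ∈ K := K.mul_mem (hKn.conj_mem _ hk g) (K.inv_mem hk)
          have hmem : g * k * g⁻¹ * k⁻¹ ∈ zc K := by
            refine ⟨hcK, Subgroup.mem_centralizer_iff.2 fun l hl => ?_⟩
            refine (commutatorElement_eq_one_iff_mul_comm.1 ?_).symm
            have hzm : ⁅g * k * g⁻¹ * k⁻¹, l⁆ ∈ zc K :=
              ⟨K.mul_mem (K.mul_mem (K.mul_mem hcK hl) (K.inv_mem hcK)) (K.inv_mem hl),
                Subgroup.mem_centralizer_iff.2 fun c hc => ((hcls _ hcK _ hl _ hc).eq).symm⟩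
            refine congrArg Subtype.val (hsep ⟨_, hzm⟩ fun χ hχ => ?_)
            obtain ⟨hg, hact⟩ := hfix χ hχ
            set d := charData hexp hcls hζ χ
            have hKs : K ≤ charStab χ := le_charStab χ
            let k' : d.K := ⟨⟨k, hKs hk⟩, hk⟩
            let l' : d.K := ⟨⟨l, hKs hl⟩, hl⟩
            have h5 := LinearMap.congr_fun hact (d.cls' k')
            rw [Module.End.one_apply, d.act_cls] at h5
            have h6 : d.cls' (d.cj ⟨g, hg⟩ k' * k'⁻¹) = 0 := by
              rw [d.cls_mul, d.cls_inv, h5, add_neg_cancel]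
            have h7 := congrFun (congrArg Subtype.val h6) l'
            have h8 : d.cv (d.cj ⟨g, hg⟩ k' * k'⁻¹) l' = 1 := by
              rw [← d.pow_lg (d.cv_pow _ _)]
              show d.ζ ^ (d.pf (d.cj ⟨g, hg⟩ k' * k'⁻¹) l').val = 1
              rw [show d.pf (d.cj ⟨g, hg⟩ k' * k'⁻¹) l' = 0 from h7, ZMod.val_zero, pow_zero]
            exact h8
          rw [show ⁅k, g⁆ = (g * k * g⁻¹ * k⁻¹)⁻¹ by rw [commutatorElement_def]; group]
          exact inv_mem hmem
        obtain ⟨m, rfl⟩ := ha
        have hm := Subgroup.mem_centralizer_iff.1 (mem_comap.1 (C.zpow_mem hgC m)) _ ⟨k, hk, rfl⟩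
        rw [← QuotientGroup.eq_one_iff (N := zc K)]
        show QuotientGroup.mk' (zc K) ⁅k, g ^ m⁆ = 1
        rw [map_commutatorElement, commutatorElement_eq_one_iff_mul_comm]
        exact hm
      have hzcP : IsPGroup q (zc K) :=
        (PSolv.isPGroup_pCore q X).to_le (inf_le_left.trans (map_subtype_le D))
      have hgK' : ∀ k ∈ K, Commute g k := fun k hk =>
        LocalP.commute_of_commutator_le hzcP (hcop q r.2 hr) hgZ hgK hk
      have hα : MulAut.conjNormal (H := P) g = 1 := by
        refine hDfaith _ (Nat.Coprime.coprime_dvd_left (orderOf_map_dvd _ g) (hcop q r.2 hr)) fun a ha => ?_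
        refine Subtype.ext ?_
        rw [MulAut.conjNormal_apply]
        rw [(hgK' (a : X) ⟨a, ha, rfl⟩).eq]
        exact mul_inv_cancel_right _ _
      intro a ha
      have := congrArg Subtype.val (DFunLike.congr_fun hα ⟨a, ha⟩)
      rw [MulAut.conjNormal_apply, MulAut.one_apply] at this
      exact mul_inv_eq_iff_eq_mul.1 this
    have hgO := hF (Cores.centralizer_fittingSubgroup_le hgF)
    have h3 : (orderOf g).Coprime 2 :=
      Element.coprime_orderOf_of_mem (PSolv.coprime_card_pPrimeCore 2 X) hgO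
    rw [← orderOf_eq_one_iff]
    exact Nat.eq_one_of_dvd_coprimes (h3.pow_right i) dvd_rfl (dvd_of_eq hi)
  have hMcop : (Nat.card M).Coprime 2 := by
    refine (Nat.Prime.coprime_iff_not_dvd Nat.prime_two).2 ?_ |>.symm
    intro h
    obtain ⟨g, hg⟩ := exists_prime_orderOf_dvd_card' 2 h
    have := hM1 g g.2 ⟨1, by rw [Subgroup.orderOf_coe, hg, pow_one]⟩
    rw [show g = 1 from Subtype.ext this, orderOf_one] at hg
    omega
  have hMO : M ≤ pPrimeCore 2 X := PSolv.le_pPrimeCore hMn hMcop
  set π := QuotientGroup.mk' (pPrimeCore 2 X) with hπ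
  have hNp : IsPGroup 2 (N.map π) := by
    refine LocalP.isPGroup_of_forall_coprime ?_
    rintro _ ⟨a, ha, rfl⟩ hao
    -- replace `a` by its odd part
    have hmap : π (Element.pComplPart 2 a) = π a := by
      have h1 := Element.pPart_mul_pComplPart 2 a
      have h2 : π (Element.pPart 2 a) = 1 := by
        rw [(Element.map_pPart Nat.prime_two π a).1, (Element.pPart_eq_one Nat.prime_two hao).1]
      conv_rhs => rw [← h1, map_mul, h2, one_mul]
    have hmem : Element.pComplPart 2 a ∈ M := subset_closure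
      ⟨(zpowers_le.2 ha) (Element.pComplPart_mem_zpowers 2 a), Element.coprime_orderOf_pComplPart Nat.prime_two a⟩
    rw [← hmap]
    exact (QuotientGroup.eq_one_iff _).2 (hMO hmem)
  exact PSolv.le_pCore ((normalClosure_normal).map π (QuotientGroup.mk'_surjective _)) hNp
    ⟨τ, subset_normalClosure rfl, rfl⟩

end Cfsg.Agent.Gross
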