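import Mathlib.Algebra.Ring.Parity
import Mathlib.Algebra.Ring.GeomSum
import Mathlib.Algebra.BigOperators.Ring.Nat
import Mathlib.Data.Nat.Prime.Basic
import Mathlib.RingTheory.Coprime.Lemmas
import Mathlib.Tactic.Ring
import Mathlib.Tactic.IntervalCases
import Mathlib.Tactic.Linarith
import Mathlib.Tactic.LinearCombination

/-!
# The 2-part of `q ^ f ± 1`
-/

set_option autoImplicit false

namespace Cfsg.Agent.Gross

theorem dvd_of_dvd_mul_odd {n a s : ℕ} (hs : Odd s) (h : 2 ^ n ∣ a * s) : 2 ^ n ∣ a :=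
  ((Nat.coprime_two_left.2 hs).pow_left n).dvd_of_dvd_mul_right h

theorem succ_dvd_aux {q f n : ℕ} (hq : Odd q) (hf : Odd f) (h : 2 ^ n ∣ q ^ f + 1) :
    2 ^ n ∣ q + 1 := by
  have hdvd : q + 1 ∣ q ^ f + 1 := by simpa using hf.nat_add_dvd_pow_add_pow q 1
  obtain ⟨s, hs⟩ := hdvd
  refine dvd_of_dvd_mul_odd (a := q + 1) (s := s) ?_ (hs ▸ h)
  by_contra hse
  rw [Nat.not_odd_iff_even] at hse
  obtain ⟨r, rfl⟩ := hse
  -- modulo `2 * (q + 1)` the quotient `(q ^ f + 1) / (q + 1)` is odd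
  obtain ⟨k, rfl⟩ := hf
  have key : ∀ k : ℕ, ∃ c, q ^ (2 * k + 1) + 1 = (q + 1) * (2 * c + 1) := by
    intro k
    induction k with
    | zero => exact ⟨0, by ring⟩
    | succ k ih =>
      obtain ⟨c, hc⟩ := ih
      obtain ⟨a, rfl⟩ := hq
      refine ⟨(2 * a + 1) * (2 * a + 1) * c + 2 * a * a + a, ?_⟩
      have e : (2 * a + 1) ^ (2 * k + 1) + 1 = (2 * a + 1 + 1) * (2 * c + 1) := hc
      have e2 : (2 * a + 1) ^ (2 * (k + 1) + 1) =
          (2 * a + 1) ^ (2 * k + 1) * ((2 * a + 1) * (2 * a + 1)) := by ring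
      rw [e2]
      zify at e ⊢
      linear_combination ((2 * (a : ℤ) + 1) * (2 * a + 1)) * e
  obtain ⟨c, hc⟩ := key k
  have : 2 * c + 1 = r + r := Nat.eq_of_mul_eq_mul_left (by omega : 0 < q + 1) (hc.symm.trans hs)
  omega

theorem two_pow_dvd_two_of_even {q f n : ℕ} (hq : Odd q) (hf : Even f) (h : 2 ^ n ∣ q ^ f + 1) :
    2 ^ n ∣ 2 := by
  obtain ⟨a, rfl⟩ := hq
  obtain ⟨m, rfl⟩ := hf
  obtain ⟨c, hc⟩ : ∃ c, (2 * a + 1) ^ (m + m) + 1 = 2 * (2 * c + 1) := by
    have : ∃ d, (2 * a + 1) ^ (m + m) = 4 * d + 1 := by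
      rw [← two_mul, pow_mul]
      clear h
      induction m with
      | zero => exact ⟨0, by simp⟩
      | succ m ih =>
        obtain ⟨d, hd⟩ := ih
        exact ⟨((2 * a + 1) ^ 2) * d + a * a + a, by rw [pow_succ, hd]; ring⟩
    obtain ⟨d, hd⟩ := this
    exact ⟨d, by omega⟩
  rw [hc] at h
  exact dvd_of_dvd_mul_odd ⟨c, rfl⟩ h

theorem two_pow_le_add {q f n : ℕ} (hq : Odd q) (hq2 : 2 ≤ q) (hf : 1 ≤ f)
    (h : 2 ^ n ∣ q ^ f + 1) : 2 ^ n ≤ (q + 1) * f := by
  have hle : 2 ^ n ≤ q + 1 := by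
    rcases Nat.even_or_odd f with he | ho
    · exact (Nat.le_of_dvd (by omega) (two_pow_dvd_two_of_even hq he h)).trans (by omega)
    · exact Nat.le_of_dvd (by omega) (succ_dvd_aux hq ho h)
  nlinarith

theorem two_pow_le_sub {q n : ℕ} (hq : Odd q) (hq2 : 2 ≤ q) :
    ∀ f : ℕ, 1 ≤ f → 2 ^ n ∣ q ^ f - 1 → 2 ^ n ≤ (q + 1) * f := by
  intro f
  induction f using Nat.strong_induction_on generalizing n with
  | _ f ih =>
    intro hf h
    rcases Nat.even_or_odd f with he | ho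
    · obtain ⟨m, rfl⟩ := he
      have hfac : q ^ (m + m) - 1 = (q ^ m + 1) * (q ^ m - 1) := by
        obtain ⟨t, ht⟩ : ∃ t, q ^ m = t + 1 := ⟨q ^ m - 1, by
          have := Nat.one_le_pow m q (by omega); omega⟩
        rw [pow_add, ht]
        simp only [Nat.add_sub_cancel]
        rw [show (t + 1) * (t + 1) = (t + 1 + 1) * t + 1 by ring, Nat.add_sub_cancel]
      rw [hfac] at h
      obtain ⟨a, b, ha, hb, hab⟩ := Nat.dvd_mul.1 h
      obtain ⟨i, -, rfl⟩ := (Nat.dvd_prime_pow Nat.prime_two).1 (hab ▸ dvd_mul_right a b)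
      obtain ⟨j, -, rfl⟩ := (Nat.dvd_prime_pow Nat.prime_two).1 (hab ▸ dvd_mul_left b _)
      rw [← hab]
      have hq1 : Odd (q ^ m) := hq.pow
      by_cases hi : i ≤ 1
      · have h1 : 2 ^ i ≤ 2 := le_trans (Nat.pow_le_pow_right (by norm_num) hi) (by norm_num)
        have h2 := ih m (by omega) (by omega) hb
        have h3 := Nat.mul_le_mul h1 h2
        linarith
      · by_cases hj : j ≤ 1
        · have h1 : 2 ^ j ≤ 2 := le_trans (Nat.pow_le_pow_right (by norm_num) hj) (by norm_num)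
          have h2 := two_pow_le_add hq hq2 (by omega : 1 ≤ m) ha
          have h3 := Nat.mul_le_mul h2 h1
          linarith
        · exfalso
          have h4a : 4 ∣ q ^ m + 1 :=
            dvd_trans (show (2 : ℕ) ^ 2 ∣ 2 ^ i from Nat.pow_dvd_pow 2 (by omega)) ha
          have h4b : 4 ∣ q ^ m - 1 :=
            dvd_trans (show (2 : ℕ) ^ 2 ∣ 2 ^ j from Nat.pow_dvd_pow 2 (by omega)) hb
          obtain ⟨t, ht⟩ := hq1
          omega
    · have hsum : (∑ i ∈ Finset.range f, q ^ i) * (q - 1) = q ^ f - 1 :=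
        geom_sum_mul_of_one_le (by omega) _
      have hodd : Odd (∑ i ∈ Finset.range f, q ^ i) := by
        rw [Finset.odd_sum_iff_odd_card_odd, Finset.filter_true_of_mem (fun i _ => hq.pow),
          Finset.card_range]
        exact ho
      have h2 := dvd_of_dvd_mul_odd hodd (show 2 ^ n ∣ (q - 1) * _ by rw [mul_comm, hsum]; exact h)
      have := Nat.le_of_dvd (by omega) h2
      have hle : (q + 1) * 1 ≤ (q + 1) * f := Nat.mul_le_mul_left _ hf
      omega

/-- The numerical fact used for the exceptional elements. -/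
theorem mul_le_pow {q : ℕ} (hq : 3 ≤ q) : ∀ d : ℕ, 2 ≤ d → (q + 1) * d ≤ q ^ d := by
  intro d
  induction d with
  | zero => omega
  | succ d ih =>
    intro hd
    rcases Nat.lt_or_ge d 2 with h | h
    · obtain rfl : d = 1 := by omega
      rw [show q ^ (1 + 1) = q * q by ring]
      nlinarith
    · rw [pow_succ]
      have h3 := Nat.mul_le_mul (ih h) hq
      have h4 : (q + 1) * (d + 1) ≤ (q + 1) * (d * 3) := Nat.mul_le_mul_left _ (by omega)
      linarith

end Cfsg.Agent.Gross
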