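import Cfsg.Agent.Gross.Symp
import Cfsg.Agent.PSolv.HallHigman
import Cfsg.Agent.CharTwo.Constrained
import Cfsg.Agent.LocalP.Basic
import Mathlib.GroupTheory.Nilpotent

/-!
# Symplectic reflections of 2-power order in solvable groups

A reflection is an isometry `y` whose commutator space is a plane on which `y` has order `2 ^ m = q + 1`.
In a solvable group the involution `y ^ 2 ^ (m - 1)` lies in `O_{2',2}`.
-/

set_option autoImplicit false
set_option linter.unusedSectionVars false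
set_option linter.style.haveILetI false

namespace Cfsg.Agent.Gross

open Module LinearMap Subgroup
open scoped Pointwise

variable {q : ℕ} {H : Type*} [Group H] {V : Type*} [AddCommGroup V] [Module (ZMod q) V]

/-- The commutator space of an element. -/
def moved (σ : H →* Module.End (ZMod q) V) (h : H) : Submodule (ZMod q) V := range (σ h - 1)

theorem sub_mem_moved (σ : H →* Module.End (ZMod q) V) (h : H) (v : V) : σ h v - v ∈ moved σ h :=
  ⟨v, by rw [LinearMap.sub_apply, Module.End.one_apply]⟩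

theorem moved_le_iff (σ : H →* Module.End (ZMod q) V) (h : H) {U : Submodule (ZMod q) V} :
    moved σ h ≤ U ↔ ∀ v, σ h v - v ∈ U :=
  ⟨fun hle v => hle (sub_mem_moved σ h v), fun hall => by
    rintro _ ⟨v, rfl⟩
    simpa using hall v⟩

theorem moved_mul_le (σ : H →* Module.End (ZMod q) V) (a b : H) :
    moved σ (a * b) ≤ moved σ a ⊔ moved σ b := by
  rw [moved_le_iff]
  intro v
  have e : σ (a * b) v - v = (σ a (σ b v) - σ b v) + (σ b v - v) := by
    rw [map_mul, Module.End.mul_apply]; abel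
  rw [e]
  exact Submodule.add_mem_sup (sub_mem_moved _ _ _) (sub_mem_moved _ _ _)

theorem moved_one (σ : H →* Module.End (ZMod q) V) : moved σ 1 = ⊥ := by
  rw [moved, map_one, sub_self, LinearMap.range_zero]

theorem moved_pow_le (σ : H →* Module.End (ZMod q) V) (h : H) (k : ℕ) :
    moved σ (h ^ k) ≤ moved σ h := by
  induction k with
  | zero => rw [pow_zero, moved_one]; exact bot_le
  | succ k ih => rw [pow_succ]; exact (moved_mul_le σ _ _).trans (sup_le ih le_rfl)

theorem apply_inv_apply (σ : H →* Module.End (ZMod q) V) (h : H) (v : V) : σ h⁻¹ (σ h v) = v := by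
  rw [← Module.End.mul_apply, ← map_mul, inv_mul_cancel, map_one, Module.End.one_apply]

theorem apply_apply_inv (σ : H →* Module.End (ZMod q) V) (h : H) (v : V) : σ h (σ h⁻¹ v) = v := by
  rw [← Module.End.mul_apply, ← map_mul, mul_inv_cancel, map_one, Module.End.one_apply]

theorem moved_inv_le (σ : H →* Module.End (ZMod q) V) (h : H) : moved σ h⁻¹ ≤ moved σ h := by
  rw [moved_le_iff]
  intro v
  have := neg_mem (sub_mem_moved σ h (σ h⁻¹ v))
  rw [apply_apply_inv, neg_sub] at this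
  exact this

theorem moved_conj (σ : H →* Module.End (ZMod q) V) (g h : H) :
    moved σ (g * h * g⁻¹) = (moved σ h).map (σ g) := by
  refine le_antisymm ?_ ?_
  · rw [moved_le_iff]
    intro v
    refine ⟨σ h (σ g⁻¹ v) - σ g⁻¹ v, sub_mem_moved _ _ _, ?_⟩
    rw [map_sub, apply_apply_inv, map_mul, map_mul, Module.End.mul_apply, Module.End.mul_apply]
  · rintro _ ⟨_, ⟨v, rfl⟩, rfl⟩
    refine ⟨σ g v, ?_⟩
    simp only [LinearMap.sub_apply, Module.End.one_apply, map_mul, map_sub, Module.End.mul_apply,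
      apply_inv_apply]

variable {B : V →ₗ[ZMod q] V →ₗ[ZMod q] ZMod q}

/-- Two subspaces are perpendicular. -/
def Perp (B : V →ₗ[ZMod q] V →ₗ[ZMod q] ZMod q) (U W : Submodule (ZMod q) V) : Prop :=
  ∀ u ∈ U, ∀ w ∈ W, B u w = 0

theorem Perp.symm (hB : ∀ v, B v v = 0) [Fact q.Prime] [FiniteDimensional (ZMod q) V]
    {U W : Submodule (ZMod q) V} (h : Perp B U W) : Perp B W U :=
  fun w hw u hu => by rw [alt_swap hB, h u hu w hw, neg_zero]

variable [Fact q.Prime] [FiniteDimensional (ZMod q) V]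

/-- The data of a group of isometries. -/
structure IsIsoRep (σ : H →* Module.End (ZMod q) V) (B : V →ₗ[ZMod q] V →ₗ[ZMod q] ZMod q) : Prop where
  alt : ∀ v, B v v = 0
  nondeg : ∀ v, (∀ u, B u v = 0) → v = 0
  iso : ∀ h u v, B (σ h u) (σ h v) = B u v

variable {σ : H →* Module.End (ZMod q) V}

theorem IsIsoRep.fixed_iff (hσ : IsIsoRep σ B) (h : H) (v : V) :
    σ h v = v ↔ v ∈ orth B (moved σ h) := by
  constructor
  · rintro hv _ ⟨u, rfl⟩
    rw [LinearMap.sub_apply, Module.End.one_apply, map_sub, LinearMap.sub_apply]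
    conv_lhs => arg 1; rw [← hv]
    rw [hσ.iso, sub_self]
  · intro hv
    refine sub_eq_zero.1 (hσ.nondeg _ fun u => ?_)
    have h1 := hv _ (sub_mem_moved σ h (σ h⁻¹ u))
    rw [apply_apply_inv, map_sub, LinearMap.sub_apply, sub_eq_zero] at h1
    rw [map_sub, sub_eq_zero, h1]
    conv_rhs => rw [← hσ.iso h (σ h⁻¹ u) v]
    rw [apply_apply_inv]

theorem IsIsoRep.perp_map (hσ : IsIsoRep σ B) {U W : Submodule (ZMod q) V} (h : Perp B U W) (g : H) :
    Perp B (U.map (σ g)) (W.map (σ g)) := by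
  rintro _ ⟨u, hu, rfl⟩ _ ⟨w, hw, rfl⟩
  rw [hσ.iso]; exact h u hu w hw

theorem finrank_map_apply (σ : H →* Module.End (ZMod q) V) (g : H) (U : Submodule (ZMod q) V) :
    finrank (ZMod q) ↥(U.map (σ g)) = finrank (ZMod q) ↥U :=
  (Submodule.equivMapOfInjective _ (Function.LeftInverse.injective (apply_inv_apply σ g)) U).symm.finrank_eq

/-- A reflection of order `2 ^ m`. -/
structure IsRefl (σ : H →* Module.End (ZMod q) V) (m : ℕ) (y : H) : Prop where
  dim : finrank (ZMod q) ↥(moved σ y) = 2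
  neg : ∀ v ∈ moved σ y, σ (y ^ 2 ^ (m - 1)) v = -v

variable {m : ℕ}

theorem IsRefl.conj {y : H} (hy : IsRefl σ m y) (g : H) : IsRefl σ m (g * y * g⁻¹) := by
  refine ⟨?_, ?_⟩
  · rw [moved_conj, finrank_map_apply, hy.dim]
  · rw [moved_conj]
    rintro _ ⟨v, hv, rfl⟩
    rw [conj_pow, map_mul, map_mul, Module.End.mul_apply, Module.End.mul_apply, apply_inv_apply,
      hy.neg v hv, map_neg]

/-- The numerical hypotheses. -/
structure IsReflPrime (q m : ℕ) : Prop where
  two_le : 2 ≤ m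
  eq : q + 1 = 2 ^ m

theorem IsReflPrime.ne_two (hm : IsReflPrime q m) : q ≠ 2 := by
  rintro rfl
  have h := hm.eq
  have h2 : (2 : ℕ) ^ 2 ≤ 2 ^ m := Nat.pow_le_pow_right (by norm_num) hm.two_le
  omega

theorem IsReflPrime.mod_four (hm : IsReflPrime q m) : q % 4 = 3 := by
  obtain ⟨k, hk⟩ := Nat.exists_eq_add_of_le hm.two_le
  have h := hm.eq
  rw [hk, pow_add] at h
  omega

theorem IsRefl.eq_zero_of_mem_of_fixed (hm : IsReflPrime q m) {y : H} (hy : IsRefl σ m y) {v : V}
    (hv : v ∈ moved σ y) (hfix : σ (y ^ 2 ^ (m - 1)) v = v) : v = 0 := by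
  rw [hy.neg v hv] at hfix
  have h4 : (2 : ZMod q) • v = 0 := by
    rw [two_smul]; nth_rw 1 [← hfix]; exact neg_add_cancel v
  exact (smul_eq_zero.1 h4).resolve_left (two_ne_zero_zmod hm.ne_two)

theorem IsRefl.eq_zero_of_mem_orth (hm : IsReflPrime q m) (hσ : IsIsoRep σ B) {y : H}
    (hy : IsRefl σ m y) {v : V} (hv : v ∈ moved σ y) (ho : v ∈ orth B (moved σ y)) : v = 0 := by
  refine hy.eq_zero_of_mem_of_fixed hm hv ?_
  have h1 := (hσ.fixed_iff y v).2 ho
  rw [map_pow]
  induction 2 ^ (m - 1) with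
  | zero => simp
  | succ k ih => rw [pow_succ, Module.End.mul_apply, h1, ih]

theorem IsRefl.eq_zero_of_eigen (hm : IsReflPrime q m) {y : H} (hy : IsRefl σ m y) {v : V}
    (hv : v ∈ moved σ y) {c : ZMod q} (hc : σ y v = c • v) : v = 0 := by
  have hpow : ∀ k : ℕ, σ (y ^ k) v = c ^ k • v := by
    intro k
    induction k with
    | zero => simp
    | succ k ih =>
      rw [pow_succ, map_mul, Module.End.mul_apply, hc, map_smul, ih, smul_smul, pow_succ']
  by_contra h0
  have h1 := hpow (2 ^ (m - 1))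
  rw [hy.neg v hv] at h1
  have h2 : c ^ 2 ^ (m - 1) = -1 := by
    have : (c ^ 2 ^ (m - 1) - -1) • v = 0 := by rw [sub_smul, ← h1, neg_one_smul, sub_self]
    exact sub_eq_zero.1 ((smul_eq_zero.1 this).resolve_right h0)
  obtain ⟨k, hk⟩ := Nat.exists_eq_add_of_le hm.two_le
  have h3 : IsSquare (-1 : ZMod q) := by
    refine ⟨c ^ 2 ^ k, ?_⟩
    rw [← h2, ← pow_add, hk, show 2 + k - 1 = k + 1 by omega, pow_succ, Nat.mul_two]
  exact ZMod.exists_sq_eq_neg_one_iff.1 h3 hm.mod_four

theorem IsRefl.decomp (hm : IsReflPrime q m) (hσ : IsIsoRep σ B) {y : H} (hy : IsRefl σ m y)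
    (v : V) : ∃ u ∈ moved σ y, ∃ w ∈ orth B (moved σ y), v = u + w := by
  have hdis : moved σ y ⊓ orth B (moved σ y) = ⊥ := by
    rw [eq_bot_iff]; rintro x ⟨h1, h2⟩; exact hy.eq_zero_of_mem_orth hm hσ h1 h2
  have h1 := Submodule.finrank_sup_add_finrank_inf_eq (moved σ y) (orth B (moved σ y))
  rw [hdis, finrank_bot, add_zero] at h1
  have h2 := finrank_orth_add hσ.nondeg (moved σ y)
  have htop : moved σ y ⊔ orth B (moved σ y) = ⊤ := Submodule.eq_top_of_finrank_eq (by omega)
  obtain ⟨u, hu, w, hw, huw⟩ := Submodule.mem_sup.1 (htop ▸ Submodule.mem_top : v ∈ _)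
  exact ⟨u, hu, w, hw, huw.symm⟩

theorem IsRefl.pow_fixes (hm : IsReflPrime q m) (hσ : IsIsoRep σ B) {y : H} (hy : IsRefl σ m y)
    {v : V} (ho : v ∈ orth B (moved σ y)) : σ (y ^ 2 ^ (m - 1)) v = v := by
  have h1 := (hσ.fixed_iff y v).2 ho
  rw [map_pow]
  induction 2 ^ (m - 1) with
  | zero => simp
  | succ k ih => rw [pow_succ, Module.End.mul_apply, h1, ih]

/-- The involution of a reflection only depends on its plane. -/
theorem IsRefl.pow_eq_of_moved_eq (hm : IsReflPrime q m) (hσ : IsIsoRep σ B)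
    (hinj : Function.Injective σ) {y y' : H} (hy : IsRefl σ m y) (hy' : IsRefl σ m y')
    (heq : moved σ y' = moved σ y) : y' ^ 2 ^ (m - 1) = y ^ 2 ^ (m - 1) := by
  refine hinj (LinearMap.ext fun v => ?_)
  obtain ⟨u, hu, w, hw, rfl⟩ := hy.decomp hm hσ v
  rw [map_add, map_add, hy.neg u hu, hy'.neg u (heq ▸ hu), hy.pow_fixes hm hσ hw,
    hy'.pow_fixes hm hσ (heq ▸ hw)]

theorem eq_or_lt_of_inf (hm : IsReflPrime q m) {y : H} (hy : IsRefl σ m y)
    (U : Submodule (ZMod q) V) (hU : finrank (ZMod q) ↥U = 2) (hinv : U.map (σ y) ≤ U) :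
    U = moved σ y ∨ U ⊓ moved σ y = ⊥ := by
  by_cases h0 : U ⊓ moved σ y = ⊥
  · exact Or.inr h0
  refine Or.inl ?_
  obtain ⟨v, hv, hv0⟩ := Submodule.exists_mem_ne_zero_of_ne_bot h0
  by_contra hne
  have hlt : finrank (ZMod q) ↥(U ⊓ moved σ y) ≤ 1 := by
    by_contra h
    have h1 := Submodule.eq_of_le_of_finrank_le (inf_le_left : U ⊓ moved σ y ≤ U) (by omega)
    have h2 := Submodule.eq_of_le_of_finrank_le (inf_le_right : U ⊓ moved σ y ≤ moved σ y)
      (by rw [hy.dim]; omega)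
    exact hne (h1.symm.trans h2)
  have hyv : σ y v ∈ U ⊓ moved σ y := by
    refine ⟨hinv ⟨v, hv.1, rfl⟩, ?_⟩
    have := add_mem (sub_mem_moved σ y v) hv.2
    rwa [sub_add_cancel] at this
  have hline : Submodule.span (ZMod q) {v} = U ⊓ moved σ y :=
    Submodule.eq_of_le_of_finrank_le ((Submodule.span_singleton_le_iff_mem _ _).2 hv)
      (by rw [finrank_span_singleton hv0]; omega)
  obtain ⟨c, hc⟩ := Submodule.mem_span_singleton.1 (hline ▸ hyv)
  exact hv0 (hy.eq_zero_of_eigen hm hv.2 hc.symm)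

/-- In a 2-group the planes of reflections are equal or perpendicular. -/
theorem plane_dichotomy [Finite H] (hm : IsReflPrime q m) (hσ : IsIsoRep σ B) :
    ∀ (N : ℕ) (T : Subgroup H), Nat.card T ≤ N → IsPGroup 2 T → ∀ y ∈ T, ∀ y' ∈ T,
      IsRefl σ m y → IsRefl σ m y' → moved σ y' = moved σ y ∨ Perp B (moved σ y) (moved σ y') := by
  intro N
  induction N with
  | zero => intro T hT; exact absurd (Nat.card_pos (α := T)) (by omega)
  | succ N ih =>
    intro T hcard hT y hyT y' hy'T hy hy'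
    by_cases hle : T ≤ zpowers y
    · left
      obtain ⟨k, hk⟩ := (mem_powers_iff_mem_zpowers).2 (hle hy'T)
      refine Submodule.eq_of_le_of_finrank_le ?_ (by rw [hy.dim, hy'.dim])
      rw [← hk]; exact moved_pow_le σ y k
    haveI := Fact.mk Nat.prime_two
    haveI : Group.IsNilpotent T := hT.isNilpotent
    set Y : Subgroup T := zpowers (⟨y, hyT⟩ : T) with hY
    have hYne : Y ≠ ⊤ := by
      intro h
      refine hle fun x hx => ?_
      obtain ⟨k, hk⟩ := mem_zpowers_iff.1 (h ▸ mem_top (⟨x, hx⟩ : T) : _ ∈ Y)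
      exact ⟨k, congrArg Subtype.val hk⟩
    obtain ⟨M0, hM0, hYM⟩ := (eq_top_or_exists_le_coatom Y).resolve_left hYne
    haveI : M0.Normal := (Group.normalizerCondition_of_isNilpotent).normal_of_coatom M0 hM0
    set M := M0.map T.subtype with hMdef
    have hMT : M ≤ T := map_subtype_le _
    have hMlt : Nat.card M < Nat.card T := by
      rw [hMdef, card_map_of_injective T.subtype_injective]
      exact lt_of_le_of_ne (Nat.card_le_card_of_injective _ M0.subtype_injective)
        (fun h => hM0.1 (eq_top_of_card_eq M0 h))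
    have hyM : y ∈ M := ⟨⟨y, hyT⟩, hYM (mem_zpowers _), rfl⟩
    have hnM : ∀ g ∈ T, g * y * g⁻¹ ∈ M := fun g hg =>
      ⟨_, (inferInstance : M0.Normal).conj_mem _ (hYM (mem_zpowers _)) ⟨g, hg⟩, rfl⟩
    have IH := ih M (by omega) (hT.to_le hMT) y hyM
    set U := moved σ y
    set U' := moved σ y'
    have hmap : ∀ W : Submodule (ZMod q) V, W.map (σ y') ≤ W ⊔ U' := by
      rintro W _ ⟨w, hw, rfl⟩
      have := Submodule.add_mem_sup hw (sub_mem_moved σ y' w)
      rwa [add_sub_cancel] at this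
    have h1 := IH _ (hnM y' hy'T) hy (hy.conj y')
    rw [moved_conj] at h1
    rcases h1 with h1 | h1
    · rcases eq_or_lt_of_inf hm hy' U hy.dim h1.le with h | h
      · exact Or.inl h.symm
      · refine Or.inr (Perp.symm hσ.alt fun u' hu' u hu => ?_)
        have hfix : σ y' u = u := by
          refine sub_eq_zero.1 ((Submodule.mem_bot (ZMod q)).1 ?_)
          rw [← h]
          exact ⟨sub_mem (h1.le ⟨u, hu, rfl⟩) hu, sub_mem_moved σ y' u⟩
        exact (hσ.fixed_iff y' u).1 hfix u' hu'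
    right
    set U2 := U.map (σ y')
    have hd2 : finrank (ZMod q) ↥U2 = 2 := by rw [finrank_map_apply, hy.dim]
    have hdis : U ⊓ U2 = ⊥ := by
      rw [eq_bot_iff]
      rintro x ⟨hx, hx2⟩
      exact hy.eq_zero_of_mem_orth hm hσ hx fun u hu => h1 u hu x hx2
    have hsup : U ⊔ U2 = U ⊔ U' := by
      refine Submodule.eq_of_le_of_finrank_le (sup_le le_sup_left (hmap U)) ?_
      have e1 := Submodule.finrank_sup_add_finrank_inf_eq U U2
      have e2 := Submodule.finrank_sup_add_finrank_inf_eq U U'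
      rw [hdis, finrank_bot, hy.dim, hd2] at e1
      rw [hy.dim, hy'.dim] at e2
      omega
    have hUU' : U ⊓ U' = ⊥ := by
      have e1 := Submodule.finrank_sup_add_finrank_inf_eq U U2
      have e2 := Submodule.finrank_sup_add_finrank_inf_eq U U'
      rw [hdis, finrank_bot, hy.dim, hd2] at e1
      rw [hy.dim, hy'.dim, ← hsup] at e2
      exact Submodule.finrank_eq_zero.1 (by omega)
    have h3 := IH _ (hnM (y' ^ 2) (T.pow_mem hy'T 2)) hy (hy.conj (y' ^ 2))
    rw [moved_conj] at h3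
    have hU3 : U.map (σ (y' ^ 2)) = U := by
      rcases h3 with h3 | h3
      · exact h3
      exfalso
      have hU2p : Perp B U2 (U.map (σ (y' ^ 2))) := by
        rw [map_pow, pow_two, Module.End.mul_eq_comp, Submodule.map_comp]
        exact hσ.perp_map h1 y'
      have hin : U.map (σ (y' ^ 2)) ≤ U ⊔ U2 := by
        rw [map_pow, pow_two, Module.End.mul_eq_comp, Submodule.map_comp, hsup]
        refine (hmap _).trans (sup_le ((hmap U).trans le_rfl) le_sup_right)
      have hzero : U.map (σ (y' ^ 2)) = ⊥ := by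
        rw [eq_bot_iff]
        intro x hx
        obtain ⟨a, ha, b, hb, rfl⟩ := Submodule.mem_sup.1 (hin hx)
        have ha0 : a = 0 := hy.eq_zero_of_mem_orth hm hσ ha fun u hu => by
          have := h3 u hu _ hx
          rwa [map_add, h1 u hu b hb, add_zero] at this
        subst ha0
        have hb0 : b ∈ orth B (moved σ (y' * y * y'⁻¹)) := by
          rw [moved_conj]
          intro u hu
          have := hU2p u hu _ hx
          rwa [zero_add] at this
        rw [(hy.conj y').eq_zero_of_mem_orth hm hσ (by rw [moved_conj]; exact hb) hb0, add_zero]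
        exact Submodule.zero_mem _
      have := finrank_map_apply σ (y' ^ 2) U
      rw [hzero, finrank_bot, hy.dim] at this
      omega
    refine Perp.symm hσ.alt fun u' hu' u hu => ?_
    have hiter : ∀ k : ℕ, ∀ x ∈ U, σ ((y' ^ 2) ^ k) x ∈ U := by
      intro k
      induction k with
      | zero => intro x hx; simpa using hx
      | succ k ih =>
        intro x hx
        rw [pow_succ, map_mul, Module.End.mul_apply]
        exact ih _ (hU3.le ⟨x, hx, rfl⟩)
    obtain ⟨j, hj⟩ := Nat.exists_eq_add_of_le hm.two_le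
    have hpow : y' ^ 2 ^ (m - 1) = (y' ^ 2) ^ 2 ^ j := by
      rw [← pow_mul, ← pow_succ', hj, show 2 + j - 1 = j + 1 by omega]
    have hfix : σ (y' ^ 2 ^ (m - 1)) u = u := by
      refine sub_eq_zero.1 ((Submodule.mem_bot (ZMod q)).1 ?_)
      rw [← hUU']
      exact ⟨sub_mem (hpow ▸ hiter _ u hu) hu, moved_pow_le σ y' _ (sub_mem_moved _ _ _)⟩
    obtain ⟨a, ha, b, hb, hab⟩ := hy'.decomp hm hσ u
    have ha0 : a = 0 := by
      rw [hab, map_add, hy'.neg a ha, hy'.pow_fixes hm hσ hb] at hfix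
      refine hy'.eq_zero_of_mem_of_fixed hm ha ?_
      rw [hy'.neg a ha]
      exact add_right_cancel hfix
    rw [hab, ha0, zero_add]
    exact hb u' hu'

theorem commute_of_perp (hσ : IsIsoRep σ B) (hinj : Function.Injective σ) {y y' : H}
    (h : Perp B (moved σ y) (moved σ y')) : Commute y y' := by
  refine hinj (LinearMap.ext fun v => ?_)
  have h1 : σ y (σ y' v - v) = σ y' v - v :=
    (hσ.fixed_iff y _).2 fun u hu => h u hu _ (sub_mem_moved σ y' v)
  have h2 : σ y' (σ y v - v) = σ y v - v :=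
    (hσ.fixed_iff y' _).2 fun u hu => (Perp.symm hσ.alt h) u hu _ (sub_mem_moved σ y v)
  rw [map_sub] at h1 h2
  rw [map_mul, map_mul, Module.End.mul_apply, Module.End.mul_apply]
  have e1 : σ y (σ y' v) = σ y' v - v + σ y v := by rw [← h1]; abel
  have e2 : σ y' (σ y v) = σ y v - v + σ y' v := by rw [← h2]; abel
  rw [e1, e2]; abel

/-- An element `u` with small commutator space permuting perpendicular planes: `u ^ 2` fixes each. -/
theorem map_sq_eq [Finite H] (hm : IsReflPrime q m) (hσ : IsIsoRep σ B) {T : Subgroup H}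
    (hT : IsPGroup 2 T) {u y : H} (hu : u ∈ T) (hyT : y ∈ T) (hy : IsRefl σ m y)
    (hdim : finrank (ZMod q) ↥(moved σ u) ≤ 4) :
    (moved σ y).map (σ (u ^ 2)) = moved σ y := by
  by_contra h2
  set P : ℕ → Submodule (ZMod q) V := fun i => (moved σ y).map (σ (u ^ i)) with hP
  have hadd : ∀ i j, P (i + j) = (P j).map (σ (u ^ i)) := by
    intro i j
    simp only [hP]
    rw [← Submodule.map_comp, ← Module.End.mul_eq_comp, ← map_mul, ← pow_add]
  have hdich : ∀ i j, P i ≠ P j → Perp B (P i) (P j) := by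
    intro i j hne
    have h := plane_dichotomy hm hσ _ T le_rfl hT (u ^ i * y * (u ^ i)⁻¹)
      (T.mul_mem (T.mul_mem (T.pow_mem hu i) hyT) (T.inv_mem (T.pow_mem hu i)))
      (u ^ j * y * (u ^ j)⁻¹)
      (T.mul_mem (T.mul_mem (T.pow_mem hu j) hyT) (T.inv_mem (T.pow_mem hu j)))
      (hy.conj _) (hy.conj _)
    rw [moved_conj, moved_conj] at h
    exact h.resolve_left fun e => hne e.symm
  have hne2 : P 2 ≠ P 0 := by
    simpa [hP, Submodule.map_id, Module.End.one_eq_id] using h2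
  have hmul : ∀ c, P c = P 0 → ∀ a, P (c * a) = P 0 := by
    intro c hc a
    induction a with
    | zero => rfl
    | succ a ih => rw [Nat.mul_succ, hadd, hc, ← hadd, add_zero, ih]
  have hne1 : P 1 ≠ P 0 := fun h => hne2 (by simpa using hmul 1 h 2)
  have hne3 : P 3 ≠ P 0 := by
    intro h
    obtain ⟨k, hk⟩ := hT ⟨u, hu⟩
    have hk' : u ^ 2 ^ k = 1 := by simpa using congrArg Subtype.val hk
    rcases Nat.even_or_odd k with hke | hko
    · obtain ⟨a, ha⟩ : 3 ∣ 2 ^ k - 1 := by
        obtain ⟨r, rfl⟩ := hke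
        rw [← two_mul, pow_mul]
        have h' := Nat.sub_dvd_pow_sub_pow (2 ^ 2) 1 r
        norm_num at h' ⊢; exact h'
      apply hne1
      have h4 := hmul 3 h a
      have : P (2 ^ k) = P 0 := by simp only [hP, hk', pow_zero]
      rw [← this, show 2 ^ k = 1 + (2 ^ k - 1) by have := Nat.one_le_two_pow (n := k); omega, hadd, ha, h4,
        ← hadd]
    · obtain ⟨a, ha⟩ : 3 ∣ 2 ^ (k + 1) - 1 := by
        obtain ⟨r, rfl⟩ := hko
        rw [show 2 * r + 1 + 1 = 2 * (r + 1) by ring, pow_mul]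
        have h' := Nat.sub_dvd_pow_sub_pow (2 ^ 2) 1 (r + 1)
        norm_num at h' ⊢; exact h'
      apply hne1
      have h4 := hmul 3 h a
      have : P (2 ^ (k + 1)) = P 0 := by simp only [hP, pow_succ, pow_mul, hk', one_pow, one_mul, pow_zero]
      rw [← this, show 2 ^ (k + 1) = 1 + (2 ^ (k + 1) - 1) by have := Nat.one_le_two_pow (n := k + 1); omega,
        hadd, ha, h4, ← hadd]
  have hinjmap : ∀ i a b, P (i + a) = P (i + b) → P a = P b := by
    intro i a b h
    rw [hadd, hadd] at h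
    exact Submodule.map_injective_of_injective
      (Function.LeftInverse.injective (apply_inv_apply σ (u ^ i))) h
  have h01 := hdich 0 1 (Ne.symm hne1)
  have h02 := hdich 0 2 (Ne.symm hne2)
  have h03 := hdich 0 3 (Ne.symm hne3)
  have h12 := hdich 1 2 (fun e => hne1 (hinjmap 1 0 1 e).symm)
  have h13 := hdich 1 3 (fun e => hne2 (hinjmap 1 0 2 e).symm)
  have h23 := hdich 2 3 (fun e => hne1 (hinjmap 2 0 1 e).symm)
  have hd : ∀ i, finrank (ZMod q) ↥(P i) = 2 := fun i => by
    show finrank (ZMod q) ↥((moved σ y).map (σ (u ^ i))) = 2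
    rw [finrank_map_apply, hy.dim]
  have hnd : ∀ i, ∀ x ∈ P i, x ∈ orth B (P i) → x = 0 := by
    intro i x hx ho
    refine (hy.conj (u ^ i)).eq_zero_of_mem_orth hm hσ ?_ ?_ <;> rw [moved_conj]
    · exact hx
    · exact ho
  have hstep : ∀ (i : ℕ) (R : Submodule (ZMod q) V), (∀ r ∈ R, r ∈ orth B (P i)) →
      finrank (ZMod q) ↥(P i ⊔ R) = 2 + finrank (ZMod q) ↥R := by
    intro i R hR
    have h0 : P i ⊓ R = ⊥ := by
      rw [eq_bot_iff]; rintro x ⟨hx, hx'⟩; exact hnd i x hx (hR x hx')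
    have := Submodule.finrank_sup_add_finrank_inf_eq (P i) R
    rw [h0, finrank_bot, hd] at this
    omega
  have e2 := hstep 2 (P 3) fun r hr => fun x hx => h23 x hx r hr
  have e1 := hstep 1 (P 2 ⊔ P 3) fun r hr x hx => by
    obtain ⟨a, ha, b, hb, rfl⟩ := Submodule.mem_sup.1 hr
    rw [map_add, h12 x hx a ha, h13 x hx b hb, add_zero]
  have e0 := hstep 0 (P 1 ⊔ (P 2 ⊔ P 3)) fun r hr x hx => by
    obtain ⟨a, ha, b, hb, rfl⟩ := Submodule.mem_sup.1 hr
    obtain ⟨b1, hb1, b2, hb2, rfl⟩ := Submodule.mem_sup.1 hb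
    rw [map_add, map_add, h01 x hx a ha, h02 x hx b1 hb1, h03 x hx b2 hb2, add_zero, add_zero]
  rw [e1, e2, hd] at e0
  have hin : ∀ i, P i ≤ moved σ y ⊔ moved σ u := by
    rintro i _ ⟨x, hx, rfl⟩
    have := Submodule.add_mem_sup hx (moved_pow_le σ u i (sub_mem_moved σ (u ^ i) x))
    rwa [add_sub_cancel] at this
  have hle := Submodule.finrank_mono (sup_le (hin 0) (sup_le (hin 1) (sup_le (hin 2) (hin 3))))
  have h6 := Submodule.finrank_sup_add_finrank_inf_eq (moved σ y) (moved σ u)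
  rw [hy.dim] at h6
  omega

theorem commutator_shift {G : Type*} [Group G] (t w : G) :
    t * w * (t⁻¹ * (w⁻¹ * t * w⁻¹⁻¹ * t⁻¹)⁻¹ * t⁻¹⁻¹) = w * t := by group

/-- **Key lemma**: the involution of a reflection lies in `O_{2',2}`. -/
theorem pow_mem_pPrimePCore [Finite H] [Group.IsSolvable H] (hm : IsReflPrime q m)
    (hσ : IsIsoRep σ B) (hinj : Function.Injective σ) {y : H} {a : ℕ} (hy2 : y ^ 2 ^ a = 1)
    (hy : IsRefl σ m y) : y ^ 2 ^ (m - 1) ∈ Cfsg.pPrimePCore 2 H := by
  haveI := Fact.mk Nat.prime_two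
  set τ := y ^ 2 ^ (m - 1) with hτ
  set O := Cfsg.pPrimeCore 2 H with hO
  set L := Cfsg.pPrimePCore 2 H with hL
  haveI : L.Normal := PSolv.pPrimePCore_normal 2 H
  have hyp : IsPGroup 2 ↥(zpowers y) := by
    obtain ⟨b, -, hb⟩ := (Nat.dvd_prime_pow Nat.prime_two).1 (orderOf_dvd_of_pow_eq_one hy2)
    exact IsPGroup.of_card (n := b) (by rw [Nat.card_zpowers]; exact hb)
  obtain ⟨T, hT⟩ := hyp.exists_le_sylow
  have hyT : y ∈ (T : Subgroup H) := hT (mem_zpowers y)
  set W := (T : Subgroup H) ⊓ L with hW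
  set π := QuotientGroup.mk' O with hπ
  have hWmap : W.map π = Cfsg.pCore 2 (H ⧸ O) := by
    refine le_antisymm ?_ ?_
    · rw [← PSolv.map_pPrimePCore (p := 2) (G := H)]
      exact Subgroup.map_mono inf_le_right
    · intro x hx
      obtain ⟨h, rfl⟩ := QuotientGroup.mk'_surjective O x
      have hTmap : ∃ t ∈ (T : Subgroup H), π t = π h := by
        have h1 := PSolv.pCore_le_sylow (T.mapSurjective (QuotientGroup.mk'_surjective O)) hx
        exact h1
      obtain ⟨t, ht, hte⟩ := hTmap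
      exact ⟨t, ⟨ht, show π t ∈ Cfsg.pCore 2 (H ⧸ O) from hte ▸ hx⟩, hte⟩
  have hLOW : ∀ x ∈ L, x ∈ O ⊔ W := by
    intro x hx
    obtain ⟨w, hw, hwx⟩ := hWmap.ge (show π x ∈ Cfsg.pCore 2 (H ⧸ O) from hx)
    have h1 : x * w⁻¹ ∈ O := by
      rw [← QuotientGroup.ker_mk' O, MonoidHom.mem_ker, map_mul, map_inv, ← hwx, mul_inv_cancel]
    have := mul_mem (Subgroup.mem_sup_left h1 : x * w⁻¹ ∈ O ⊔ W) (Subgroup.mem_sup_right hw)
    simpa using this
  have hlift : ∀ h : H, ∃ g ∈ normalizer (W : Set H), π g = π h := by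
    intro h
    obtain ⟨o, ho, hg⟩ := CharTwo.exists_normalizer_lift (p := 2) (O := O) (Q := W)
      (PSolv.coprime_card_pPrimeCore 2 H) (T.2.to_le inf_le_left) (y := h)
      fun w hw => hLOW _ ((inferInstance : L.Normal).conj_mem _ hw.2 h)
    refine ⟨_, hg, ?_⟩
    rw [map_mul, show π o = 1 from (QuotientGroup.eq_one_iff o).2 ho, one_mul]
  -- commutators of `W` with `τ` commute with all conjugates of `τ`
  have hkey : ∀ w ∈ W, ∀ g ∈ normalizer (W : Set H),
      Commute (w * τ * w⁻¹ * τ⁻¹) (g * τ * g⁻¹) := by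
    intro w hw g hg
    set y1 := w * y * w⁻¹
    have hy1T : y1 ∈ (T : Subgroup H) := mul_mem (mul_mem hw.1 hyT) (inv_mem hw.1)
    have hconj : y1 ^ 2 ^ (m - 1) = w * τ * w⁻¹ := conj_pow
    rcases plane_dichotomy hm hσ _ (T : Subgroup H) le_rfl T.2 y hyT y1 hy1T hy (hy.conj w) with h | h
    · rw [← hconj, hy.pow_eq_of_moved_eq hm hσ hinj (hy.conj w) h, mul_inv_cancel]
      exact Commute.one_left _
    have hcomm : Commute y1 y⁻¹ := (commute_of_perp hσ hinj h).symm.inv_right
    set u := y1 * y⁻¹ with hu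
    have hs : w * τ * w⁻¹ * τ⁻¹ = u ^ 2 ^ (m - 1) := by
      rw [hu, hcomm.mul_pow, hconj, inv_pow]
    have huW : u ∈ W := by
      refine Subgroup.mem_inf.2 ⟨mul_mem hy1T ((T : Subgroup H).inv_mem hyT), ?_⟩
      have : u = w * (y * w⁻¹ * y⁻¹) := by simp only [hu, y1]; group
      rw [this]
      exact mul_mem hw.2 ((inferInstance : L.Normal).conj_mem _ (inv_mem hw.2) y)
    set T' : Subgroup H := (T : Subgroup H).map (MulAut.conj g).toMonoidHom
    have hT' : IsPGroup 2 T' := T.2.map _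
    have huT' : u ∈ T' := by
      refine ⟨g⁻¹ * u * g, ((Subgroup.mem_normalizer_iff.1 (inv_mem hg) u).1 huW).1 |> (by simpa using ·), ?_⟩
      simp [mul_assoc]
    have hyT' : g * y * g⁻¹ ∈ T' := ⟨y, hyT, rfl⟩
    have hdim : finrank (ZMod q) ↥(moved σ u) ≤ 4 := by
      refine (Submodule.finrank_mono ((moved_mul_le σ y1 y⁻¹).trans
        (sup_le_sup_left (moved_inv_le σ y) _))).trans ?_
      have h4 := Submodule.finrank_sup_add_finrank_inf_eq (moved σ y1) (moved σ y)
      rw [(hy.conj w).dim, hy.dim] at h4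
      omega
    have hfix := map_sq_eq hm hσ hT' huT' hyT' (hy.conj g) hdim
    obtain ⟨j, hj⟩ := Nat.exists_eq_add_of_le hm.two_le
    have hfix2 : (moved σ (g * y * g⁻¹)).map (σ (u ^ 2 ^ (m - 1))) = moved σ (g * y * g⁻¹) := by
      rw [show u ^ 2 ^ (m - 1) = (u ^ 2) ^ 2 ^ j by
        rw [← pow_mul, ← pow_succ', hj, show 2 + j - 1 = j + 1 by omega]]
      induction 2 ^ j with
      | zero => simp [Module.End.one_eq_id]
      | succ k ih => rw [pow_succ, map_mul, Module.End.mul_eq_comp, Submodule.map_comp, hfix, ih]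
    rw [hs]
    set s := u ^ 2 ^ (m - 1)
    have h5 := ((hy.conj g)).pow_eq_of_moved_eq hm hσ hinj ((hy.conj g).conj s)
      (by rw [moved_conj]; exact hfix2)
    rw [conj_pow, conj_pow] at h5
    exact mul_inv_eq_iff_eq_mul.1 h5
  -- pass to the quotient
  set Q := H ⧸ O
  set P := Cfsg.pCore 2 Q with hP
  have hCP : centralizer (P : Set Q) ≤ P :=
    PSolv.centralizer_pCore_le (PSolv.isPSolvable_quotient
      (PSolv.isPSolvable_of_isSolvable inferInstance) O) (PSolv.pPrimeCore_quotient_eq_bot 2 H)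
  have hPn : P.Normal := by haveI := PSolv.pCore_characteristic 2 Q; exact Subgroup.normal_of_characteristic _
  set Dset : Set Q := {d | ∃ w ∈ P, ∃ x : Q, d = w * (x * π τ * x⁻¹) * w⁻¹ * (x * π τ * x⁻¹)⁻¹}
  set D := closure Dset with hD
  haveI : D.Normal := by
    refine ⟨fun d hd g => ?_⟩
    have : D ≤ D.comap (MulAut.conj g).toMonoidHom := by
      refine (closure_le _).2 ?_
      rintro _ ⟨w, hw, x, rfl⟩
      refine subset_closure ⟨g * w * g⁻¹, hPn.conj_mem _ hw g, g * x, ?_⟩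
      simp only [MulEquiv.coe_toMonoidHom, MulAut.conj_apply]
      group
    exact this hd
  have hDcomm : ∀ d ∈ Dset, ∀ x : Q, Commute (x * π τ * x⁻¹) d := by
    rintro _ ⟨w, hw, x, rfl⟩ x'
    obtain ⟨g, hg, rfl⟩ : ∃ g ∈ normalizer (W : Set H), π g = x := by
      obtain ⟨h, rfl⟩ := QuotientGroup.mk'_surjective O x; exact hlift h
    obtain ⟨g', hg', rfl⟩ : ∃ g ∈ normalizer (W : Set H), π g = x' := by
      obtain ⟨h, rfl⟩ := QuotientGroup.mk'_surjective O x'; exact hlift h
    obtain ⟨w0, hw0, rfl⟩ := hWmap.ge hw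
    have hw1 : g⁻¹ * w0 * g ∈ W := by
      have := (Subgroup.mem_normalizer_iff.1 (inv_mem hg) w0).1 hw0
      simpa using this
    have h := ((hkey _ hw1 (g⁻¹ * g') (mul_mem (inv_mem hg) hg')).symm).map
      (π.comp (MulAut.conj g).toMonoidHom)
    simp only [MonoidHom.comp_apply, MulEquiv.coe_toMonoidHom, MulAut.conj_apply] at h
    convert h using 1 <;> simp only [← map_inv, ← map_mul] <;> congr 1 <;> group
  set N0 := normalClosure {π τ} with hN0
  have hN0D : N0 ≤ centralizer (D : Set Q) := by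
    rw [hN0, normalClosure, closure_le, hD, centralizer_closure]
    intro z hz
    obtain ⟨_, rfl, hc⟩ := Group.mem_conjugatesOfSet_iff.1 hz
    obtain ⟨x, rfl⟩ := isConj_iff.1 hc
    exact mem_centralizer_iff.2 fun d hd => ((hDcomm d hd x).eq).symm
  set C := (centralizer (P.map (QuotientGroup.mk' D) : Set (Q ⧸ D))).comap (QuotientGroup.mk' D)
  have hN0C : N0 ≤ C := by
    rw [hN0, normalClosure, closure_le]
    intro z hz
    obtain ⟨_, rfl, hc⟩ := Group.mem_conjugatesOfSet_iff.1 hz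
    obtain ⟨x, rfl⟩ := isConj_iff.1 hc
    refine mem_comap.2 (mem_centralizer_iff.2 ?_)
    rintro _ ⟨w, hw, rfl⟩
    refine eq_comm.1 ?_
    rw [← map_mul, ← map_mul, QuotientGroup.mk'_eq_mk']
    set t := x * π τ * x⁻¹ with ht
    have hd : w⁻¹ * t * w⁻¹⁻¹ * t⁻¹ ∈ D := subset_closure ⟨w⁻¹, inv_mem hw, x, rfl⟩
    exact ⟨_, (inferInstance : D.Normal).conj_mem _ (inv_mem hd) t⁻¹, commutator_shift t w⟩
  have hN0p : IsPGroup 2 ↥N0 := by
    refine LocalP.isPGroup_of_forall_coprime fun x hx hxo => ?_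
    have hxP : x ∈ P := by
      refine hCP (mem_centralizer_iff.2 fun w hw => ?_)
      refine (LocalP.commute_of_commutator_le (A := D) (B := P) ?_ hxo
        (fun d hd => (mem_centralizer_iff.1 (hN0D hx) d hd).symm) ?_ hw).eq.symm
      · refine (PSolv.isPGroup_pCore 2 Q).to_le ((closure_le _).2 ?_)
        rintro _ ⟨w, hw, z, rfl⟩
        have := mul_mem hw (hPn.conj_mem _
          (inv_mem hw) (z * π τ * z⁻¹))
        simpa only [hP, mul_assoc, SetLike.mem_coe] using this
      · rw [Subgroup.commutator_le]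
        rintro b hb _ ⟨i, rfl⟩
        have hc := mem_centralizer_iff.1 (mem_comap.1 (C.zpow_mem (hN0C hx) i)) _ ⟨b, hb, rfl⟩
        rw [← QuotientGroup.ker_mk' D, MonoidHom.mem_ker, map_commutatorElement,
          commutatorElement_eq_one_iff_mul_comm]
        exact hc
    exact LocalP.eq_one_of_mem_isPGroup (PSolv.isPGroup_pCore 2 Q) hxP hxo
  exact PSolv.le_pCore normalClosure_normal hN0p (subset_normalClosure rfl)

end Cfsg.Agent.Gross
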