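import Cfsg.Agent.Gross.Number
import Mathlib.LinearAlgebra.Dual.Lemmas
import Mathlib.FieldTheory.Finiteness
import Mathlib.FieldTheory.Finite.Basic
import Mathlib.RingTheory.AdjoinRoot
import Mathlib.Algebra.CharP.Algebra
import Mathlib.Algebra.CharP.Lemmas
import Mathlib.Algebra.Field.ZMod

/-!
# Alternating forms: isotropic subspaces and orders of isometries
-/

set_option autoImplicit false
set_option linter.unusedSectionVars false
set_option linter.style.haveILetI false

namespace Cfsg.Agent.Gross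

open Module LinearMap Polynomial

section form

variable {K : Type*} [Field K] {V : Type*} [AddCommGroup V] [Module K V] [FiniteDimensional K V]
  (B : V →ₗ[K] V →ₗ[K] K)

/-- The vectors paired to zero with all elements of `Y`. -/
def orth (Y : Submodule K V) : Submodule K V where
  carrier := {v | ∀ y ∈ Y, B y v = 0}
  add_mem' {a b} ha hb y hy := by rw [map_add, ha y hy, hb y hy, add_zero]
  zero_mem' y _ := map_zero _
  smul_mem' c a ha y hy := by rw [map_smul, ha y hy, smul_zero]

variable {B}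

theorem mem_orth {Y : Submodule K V} {v : V} : v ∈ orth B Y ↔ ∀ y ∈ Y, B y v = 0 := Iff.rfl

theorem alt_swap (hB : ∀ v, B v v = 0) (u v : V) : B u v = -B v u := by
  have h := hB (u + v)
  simp only [map_add, LinearMap.add_apply, hB u, hB v, zero_add, add_zero] at h
  rw [eq_neg_iff_add_eq_zero, add_comm]
  exact h

theorem flip_bijective (hnd : ∀ v, (∀ u, B u v = 0) → v = 0) : Function.Bijective B.flip := by
  have hinj : Function.Injective B.flip := by
    refine (injective_iff_map_eq_zero B.flip).2 fun v hv => hnd v fun u => ?_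
    exact LinearMap.congr_fun hv u
  exact ⟨hinj, (LinearMap.injective_iff_surjective_of_finrank_eq_finrank
    Subspace.dual_finrank_eq.symm).1 hinj⟩

theorem finrank_orth_add (hnd : ∀ v, (∀ u, B u v = 0) → v = 0) (Y : Submodule K V) :
    finrank K ↥(orth B Y) + finrank K ↥Y = finrank K V := by
  let Φ : V →ₗ[K] Dual K ↥Y := (Submodule.dualRestrict Y).comp B.flip
  have hs : Function.Surjective Φ :=
    Subspace.dualRestrict_surjective.comp (flip_bijective hnd).2
  have hker : ker Φ = orth B Y := by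
    ext v
    rw [LinearMap.mem_ker, mem_orth]
    exact ⟨fun h y hy => LinearMap.congr_fun h ⟨y, hy⟩, fun h => LinearMap.ext fun y => h y.1 y.2⟩
  have h := Φ.finrank_range_add_finrank_ker
  rw [LinearMap.range_eq_top.2 hs, finrank_top, Subspace.dual_finrank_eq, hker] at h
  omega

theorem two_mul_finrank_le_of_isotropic (hnd : ∀ v, (∀ u, B u v = 0) → v = 0) {Y : Submodule K V}
    (hY : Y ≤ orth B Y) : 2 * finrank K ↥Y ≤ finrank K V := by
  have := finrank_orth_add hnd Y
  have := Submodule.finrank_mono hY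
  omega

theorem exists_pairing (hnd : ∀ v, (∀ u, B u v = 0) → v = 0) {A : Submodule K V} {a : V}
    (ha : a ∉ A) : ∃ b, B a b = 1 ∧ ∀ x ∈ A, B x b = 0 := by
  obtain ⟨f, hfa, hfA⟩ := Submodule.exists_dual_map_eq_bot_of_notMem ha inferInstance
  obtain ⟨b, hb⟩ := (flip_bijective hnd).2 ((f a)⁻¹ • f)
  refine ⟨b, ?_, fun x hx => ?_⟩
  · have := LinearMap.congr_fun hb a
    simpa [hfa] using this
  · have := LinearMap.congr_fun hb x
    have hx0 : f x = 0 := by
      have : f x ∈ A.map f := ⟨x, hx, rfl⟩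
      rw [hfA] at this
      exact this
    simpa [hx0] using this

theorem exists_lagrangian (hB : ∀ v, B v v = 0) (hnd : ∀ v, (∀ u, B u v = 0) → v = 0) :
    ∃ A : Submodule K V, A ≤ orth B A ∧ finrank K V = 2 * finrank K ↥A := by
  obtain ⟨A, hA, hmax⟩ := wellFounded_gt.has_min {A : Submodule K V | A ≤ orth B A}
    ⟨⊥, show (⊥ : Submodule K V) ≤ _ from bot_le⟩
  refine ⟨A, hA, ?_⟩
  have hle : orth B A ≤ A := by
    intro v hv
    by_contra hvA
    refine hmax (A ⊔ Submodule.span K {v}) ?_ (left_lt_sup.2 fun h => hvA (h (Submodule.mem_span_singleton_self v)))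
    intro x hx y hy
    obtain ⟨a, ha, s, hs, rfl⟩ := Submodule.mem_sup.1 hx
    obtain ⟨a', ha', s', hs', rfl⟩ := Submodule.mem_sup.1 hy
    obtain ⟨c, rfl⟩ := Submodule.mem_span_singleton.1 hs
    obtain ⟨c', rfl⟩ := Submodule.mem_span_singleton.1 hs'
    simp only [map_add, map_smul, LinearMap.add_apply, LinearMap.smul_apply, hA ha a' ha',
      hv a' ha', alt_swap hB v a, hv a ha, hB, neg_zero, smul_zero, add_zero]
  have h1 := finrank_orth_add hnd A
  rw [le_antisymm hle hA] at h1
  omega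

theorem selfAdjoint_pow {t : Module.End K V} (ht : ∀ u v, B (t u) v = B u (t v)) (i : ℕ) (u v : V) :
    B ((t ^ i) u) v = B u ((t ^ i) v) := by
  induction i generalizing u v with
  | zero => rfl
  | succ i ih =>
    conv_lhs => rw [pow_succ, Module.End.mul_apply, ih, ht]
    rw [pow_succ', Module.End.mul_apply]

theorem selfAdjoint_apply_self (hB : ∀ v, B v v = 0) (h2 : (2 : K) ≠ 0) {s : Module.End K V}
    (hs : ∀ u v, B (s u) v = B u (s v)) (v : V) : B (s v) v = 0 := by
  have h1 : B (s v) v = -B (s v) v := by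
    conv_lhs => rw [hs, alt_swap hB]
  have h3 : (2 : K) * B (s v) v = 0 := by rw [two_mul]; exact add_eq_zero_iff_eq_neg.2 h1
  exact (mul_eq_zero.1 h3).resolve_left h2

/-- A self-adjoint operator has, at every vector, an annihilating polynomial of half degree. -/
theorem exists_poly_of_selfAdjoint (hB : ∀ v, B v v = 0) (hnd : ∀ v, (∀ u, B u v = 0) → v = 0)
    (h2 : (2 : K) ≠ 0) {t : Module.End K V} (ht : ∀ u v, B (t u) v = B u (t v)) (v : V) :
    ∃ f : K[X], f ≠ 0 ∧ 2 * f.natDegree ≤ finrank K V ∧ aeval t f v = 0 := by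
  set d := finrank K V / 2 with hd
  let L : Polynomial.degreeLT K (d + 1) →ₗ[K] V :=
    ((LinearMap.applyₗ v).comp (Polynomial.aeval t).toLinearMap).comp (Polynomial.degreeLT K (d + 1)).subtype
  have hr : range L ≤ orth B (range L) := by
    rintro _ ⟨f, rfl⟩ _ ⟨g, rfl⟩
    show B (aeval t g.1 v) (aeval t f.1 v) = 0
    have hsa : ∀ p : K[X], ∀ u w, B (aeval t p u) w = B u (aeval t p w) := by
      intro p
      induction p using Polynomial.induction_on' with
      | add p r hp hr => intro u w; simp only [map_add, LinearMap.add_apply, hp, hr]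
      | monomial i c =>
        intro u w
        rw [aeval_monomial]
        simp only [Module.End.mul_apply, Module.algebraMap_end_apply, map_smul, LinearMap.smul_apply,
          selfAdjoint_pow ht]
    rw [← hsa, ← Module.End.mul_apply, ← map_mul]
    exact selfAdjoint_apply_self hB h2 (hsa _) v
  have h1 := two_mul_finrank_le_of_isotropic hnd hr
  haveI : FiniteDimensional K ↥(Polynomial.degreeLT K (d + 1)) :=
    Module.Finite.equiv (Polynomial.degreeLTEquiv K (d + 1)).symm
  have h2' := L.finrank_range_add_finrank_ker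
  rw [(Polynomial.degreeLTEquiv K (d + 1)).finrank_eq, finrank_fin_fun] at h2'
  have hk : ker L ≠ ⊥ := fun hb => by rw [hb, finrank_bot] at h2'; omega
  obtain ⟨f, hf, hf0⟩ := Submodule.exists_mem_ne_zero_of_ne_bot hk
  have hne : (f : K[X]) ≠ 0 := fun h => hf0 (Subtype.ext h)
  refine ⟨f.1, hne, ?_, hf⟩
  have h3 := Polynomial.mem_degreeLT.1 f.2
  rw [← Polynomial.natDegree_lt_iff_degree_lt hne] at h3
  omega

/-- A vector annihilated by a polynomial leads to one annihilated by an irreducible factor. -/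
theorem exists_irreducible_annihilator (t : Module.End K V) :
    ∀ f : K[X], f ≠ 0 → ∀ v : V, v ≠ 0 → aeval t f v = 0 →
      ∃ P : K[X], ∃ w : V, Irreducible P ∧ P ∣ f ∧ w ≠ 0 ∧ aeval t P w = 0 := by
  intro f
  induction f using UniqueFactorizationMonoid.induction_on_prime with
  | h₁ => intro h; exact absurd rfl h
  | h₂ x hx =>
    intro _ v hv h
    obtain ⟨u, rfl⟩ := hx
    exfalso
    apply hv
    have : aeval t (((u⁻¹ : K[X]ˣ) : K[X]) * (u : K[X])) v = 0 := by
      rw [map_mul, Module.End.mul_apply, h, map_zero]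
    simpa using this
  | h₃ a P ha hP ih =>
    intro _ v hv h
    rw [map_mul, Module.End.mul_apply] at h
    by_cases hw : aeval t a v = 0
    · obtain ⟨P', w, h1, h2, h3, h4⟩ := ih ha v hv hw
      exact ⟨P', w, h1, h2.trans (dvd_mul_left _ _), h3, h4⟩
    · exact ⟨P, _, hP.irreducible, dvd_mul_right _ _, hw, h⟩

end form

theorem dvd_X_pow_natDegree_sub_X {q : ℕ} [Fact q.Prime] {P : (ZMod q)[X]} (hP : Irreducible P) :
    P ∣ X ^ q ^ P.natDegree - X := by
  haveI := Fact.mk hP
  haveI : Module.Finite (ZMod q) (AdjoinRoot P) := (AdjoinRoot.powerBasis hP.ne_zero).finite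
  haveI : Finite (AdjoinRoot P) := Module.finite_of_finite (ZMod q)
  haveI := Fintype.ofFinite (AdjoinRoot P)
  have hc : Fintype.card (AdjoinRoot P) = q ^ P.natDegree := by
    rw [← Nat.card_eq_fintype_card, Module.natCard_eq_pow_finrank (K := ZMod q), Nat.card_zmod,
      (AdjoinRoot.powerBasis hP.ne_zero).finrank, AdjoinRoot.powerBasis_dim]
  have h := FiniteField.pow_card (AdjoinRoot.root P)
  rw [hc] at h
  rw [← AdjoinRoot.mk_eq_zero, map_sub, map_pow, AdjoinRoot.mk_X, h, sub_self]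

section isometry

variable {q : ℕ} [Fact q.Prime] {V : Type*} [AddCommGroup V] [Module (ZMod q) V]
  [FiniteDimensional (ZMod q) V] {B : V →ₗ[ZMod q] V →ₗ[ZMod q] ZMod q}

theorem eq_zero_of_pow_fix {g : Module.End (ZMod q) V} {n c : ℕ} (hn : 1 ≤ n) (hq : q ≠ 2)
    (hg : g ^ 2 ^ n = 1) (hneg : g ^ 2 ^ (n - 1) = -1) (hc : ¬ 2 ^ n ∣ c) {v : V}
    (hv : (g ^ c) v = v) : v = 0 := by
  have hfix : ∀ a : ℕ, (g ^ (c * a)) v = v := by
    intro a
    induction a with
    | zero => simp
    | succ a ih => rw [Nat.mul_succ, pow_add, Module.End.mul_apply, hv, ih]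
  obtain ⟨i, hi, hgcd⟩ := (Nat.dvd_prime_pow Nat.prime_two).1 (Nat.gcd_dvd_right c (2 ^ n))
  have hin : i ≤ n - 1 := by
    by_contra h
    have : i = n := by omega
    exact hc (this ▸ hgcd ▸ Nat.gcd_dvd_left c (2 ^ n))
  have hlt : Nat.gcd c (2 ^ n) < 2 ^ n := hgcd ▸ Nat.pow_lt_pow_right (by norm_num) (by omega)
  obtain ⟨a, ha⟩ := Nat.exists_mul_mod_eq_gcd hlt
  have h1 : (g ^ 2 ^ i) v = v := by
    have h2 := hfix a
    rw [← Nat.div_add_mod (c * a) (2 ^ n), ha.2, hgcd, pow_add, pow_mul, hg, one_pow, one_mul] at h2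
    exact h2
  have h3 : (g ^ 2 ^ (n - 1)) v = v := by
    obtain ⟨b, hb⟩ := Nat.exists_eq_add_of_le hin
    rw [hb, pow_add 2, pow_mul]
    induction 2 ^ b with
    | zero => simp
    | succ m ih => rw [pow_succ, Module.End.mul_apply, h1, ih]
  rw [hneg, LinearMap.neg_apply, Module.End.one_apply] at h3
  have h4 : (2 : ZMod q) • v = 0 := by rw [two_smul]; nth_rw 1 [← h3]; exact neg_add_cancel v
  refine (smul_eq_zero.1 h4).resolve_left ?_
  intro h
  have h5 : ((2 : ℕ) : ZMod q) = 0 := by exact_mod_cast h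
  exact hq ((Nat.prime_dvd_prime_iff_eq Fact.out Nat.prime_two).1 ((ZMod.natCast_eq_zero_iff _ _).1 h5))

theorem two_ne_zero_zmod (hq : q ≠ 2) : (2 : ZMod q) ≠ 0 := by
  intro h
  have h5 : ((2 : ℕ) : ZMod q) = 0 := by exact_mod_cast h
  exact hq ((Nat.prime_dvd_prime_iff_eq Fact.out Nat.prime_two).1 ((ZMod.natCast_eq_zero_iff _ _).1 h5))

/-- The order of a fixed-point-free isometry of `2`-power order. -/
theorem exists_dvd_pow (hB : ∀ v, B v v = 0) (hnd : ∀ v, (∀ u, B u v = 0) → v = 0) (hq : q ≠ 2)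
    [Nontrivial V] {g : Module.End (ZMod q) V} {n : ℕ} (hn : 1 ≤ n) (hg : g ^ 2 ^ n = 1)
    (hneg : g ^ 2 ^ (n - 1) = -1) (hiso : ∀ u v, B (g u) (g v) = B u v) :
    ∃ f : ℕ, 1 ≤ f ∧ 2 * f ≤ finrank (ZMod q) V ∧ (2 ^ n ∣ q ^ f - 1 ∨ 2 ^ n ∣ q ^ f + 1) := by
  set g' := g ^ (2 ^ n - 1) with hg'
  have h2n : 1 ≤ 2 ^ n := Nat.one_le_two_pow
  have hgg : g * g' = 1 := by rw [hg', ← pow_succ', Nat.sub_add_cancel h2n, hg]
  have hg'g : g' * g = 1 := by rw [hg', ← pow_succ, Nat.sub_add_cancel h2n, hg]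
  have ht : ∀ u v, B ((g + g') u) v = B u ((g + g') v) := by
    intro u v
    have e1 : B (g u) v = B u (g' v) := by
      calc B (g u) v = B (g u) ((g * g') v) := by rw [hgg, Module.End.one_apply]
        _ = B u (g' v) := hiso _ _
    have e2 : B (g' u) v = B u (g v) := by
      rw [← hiso (g' u) v, ← Module.End.mul_apply, hgg, Module.End.one_apply]
    simp only [LinearMap.add_apply, map_add, e1, e2]
    ring
  obtain ⟨v, hv⟩ := exists_ne (0 : V)
  obtain ⟨f, hf0, hfd, hfv⟩ := exists_poly_of_selfAdjoint hB hnd (two_ne_zero_zmod hq) ht v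
  obtain ⟨P, w, hP, hPf, hw, hPw⟩ := exists_irreducible_annihilator _ f hf0 v hv hfv
  have hdeg := Polynomial.natDegree_le_of_dvd hPf hf0
  refine ⟨P.natDegree, hP.natDegree_pos, by omega, ?_⟩
  set Q := q ^ P.natDegree with hQ
  obtain ⟨R, hR⟩ := dvd_X_pow_natDegree_sub_X hP
  have hfixQ : ((g + g') ^ Q) w = (g + g') w := by
    have h : aeval (g + g') ((X : (ZMod q)[X]) ^ Q - X) w = 0 := by
      rw [hQ, hR, mul_comm, map_mul, Module.End.mul_apply, hPw, map_zero]
    simpa [sub_eq_zero] using h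
  haveI : CharP (Module.End (ZMod q) V) q :=
    charP_of_injective_algebraMap (algebraMap (ZMod q) (Module.End (ZMod q) V)).injective q
  haveI : ExpChar (Module.End (ZMod q) V) q := ExpChar.prime Fact.out
  rw [hQ, add_pow_expChar_pow_of_commute q P.natDegree (show Commute g g' from Commute.self_pow g _), ← hQ] at hfixQ
  have hQ1 : 1 ≤ Q := Nat.one_le_pow _ _ (Fact.out : q.Prime).pos
  have key : ((g ^ (Q + 1) - 1) * (g * (g ^ (Q - 1) - 1))) w = 0 := by
    have e1 : (g ^ (Q + 1) - 1) * (g * (g ^ (Q - 1) - 1)) =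
        (g ^ (Q + 1)) * (g ^ Q + g' ^ Q - g - g') := by
      have a1 : g ^ (Q + 1) * g' ^ Q = g := by
        rw [pow_succ', mul_assoc, ← (Commute.self_pow g _).mul_pow, hgg, one_pow, mul_one]
      have a2 : g ^ (Q + 1) * g' = g ^ Q := by rw [pow_succ, mul_assoc, hgg, mul_one]
      rw [mul_sub g, mul_one, ← pow_succ', Nat.sub_add_cancel hQ1]
      simp only [mul_sub, mul_add, sub_mul, one_mul, a1, a2]
      abel
    rw [e1, Module.End.mul_apply]
    have : (g ^ Q + g' ^ Q - g - g') w = 0 := by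
      simp only [LinearMap.add_apply] at hfixQ
      simp only [LinearMap.add_apply, LinearMap.sub_apply, hfixQ]
      abel
    rw [this, map_zero]
  by_contra hcon
  push Not at hcon
  have hinj : ∀ c, ¬ 2 ^ n ∣ c → ∀ x, (g ^ c - 1) x = 0 → x = 0 := fun c hc x hx =>
    eq_zero_of_pow_fix hn hq hg hneg hc (by rwa [LinearMap.sub_apply, Module.End.one_apply, sub_eq_zero] at hx)
  rw [Module.End.mul_apply, Module.End.mul_apply] at key
  have h1 := hinj _ hcon.2 _ key
  have h2 : (g ^ (Q - 1) - 1) w = 0 := by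
    calc (g ^ (Q - 1) - 1) w = (g' * g) ((g ^ (Q - 1) - 1) w) := by rw [hg'g, Module.End.one_apply]
      _ = 0 := by rw [Module.End.mul_apply, h1, map_zero]
  exact hw (hinj _ hcon.1 _ h2)

end isometry

end Cfsg.Agent.Gross
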